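import Mathlib
import Cfsg.Agent.Lib.Helper32.D8Stmt

/-!
# S3716 piece RED2

If a product of two elements of order at most 2 lies in the support of `ph1` or `ph2`, both
factors lie in `N` (they invert the nonidentity element `(u₁ u₂)^2` of `T`; TI).
-/

set_option autoImplicit false

namespace Cfsg.Agent.Lib.Helper65.D8RED2

open Cfsg Cfsg.Agent.Lib.Helper32.D8Stmt

universe u

theorem main (hNF : NF.{u}) (hTI : TI.{u}) : RED2.{u} := by
  intro G _ _ T N x y a b w cfg f g om u₁ u₂ hu₁ hu₂ hne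
  obtain ⟨-, -, huniq, hprod, hcent, hfg, -⟩ := hNF cfg
  have hti := hTI cfg
  -- `c := u₁ * u₂ ∈ C(x)`
  have hcC : u₁ * u₂ ∈ Subgroup.centralizer ({x} : Set G) := by
    by_contra hcon
    have h0 : ∀ θ : Subgroup.centralizer ({x} : Set G) → ℂ,
        extendByZero (Subgroup.centralizer ({x} : Set G)) θ (u₁ * u₂) = 0 := by
      intro θ
      unfold extendByZero
      rw [Function.extend_apply']
      · rfl
      · rintro ⟨z, hz⟩
        exact hcon (hz ▸ z.2)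
    rcases hne with h | h
    · exact h (h0 _)
    · exact h (h0 _)
  have hval : ∀ θ : Subgroup.centralizer ({x} : Set G) → ℂ,
      extendByZero (Subgroup.centralizer ({x} : Set G)) θ (u₁ * u₂) = θ ⟨u₁ * u₂, hcC⟩ := by
    intro θ
    unfold extendByZero
    exact Subtype.val_injective.extend_apply θ 0 ⟨u₁ * u₂, hcC⟩
  obtain ⟨i, j, l, hc⟩ := (hcent _).1 hcC
  have hxC : x ∈ Subgroup.centralizer ({x} : Set G) := by
    rw [Subgroup.mem_centralizer_iff]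
    intro h hh
    rw [Set.mem_singleton_iff] at hh
    rw [hh]
  -- `f c ≠ 1`
  have hfc : ((f ⟨u₁ * u₂, hcC⟩ : ℂˣ) : ℂ) ≠ 1 := by
    intro h1
    rw [hval, hval] at hne
    rcases hne with h | h
    · apply h
      unfold ph1
      rw [h1, sub_self]
    · apply h
      unfold ph2
      rw [h1, one_mul, sub_self]
  -- `f c = f x ^ i`
  have hcC' : x ^ i * y ^ j * b ^ l ∈ Subgroup.centralizer ({x} : Set G) := hc ▸ hcC
  have hfx : f ⟨u₁ * u₂, hcC⟩ = f ⟨x, hxC⟩ ^ i := by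
    have h1 := (hfg f g om i j l hcC' hxC).1
    have h2 : (⟨u₁ * u₂, hcC⟩ : Subgroup.centralizer ({x} : Set G)) =
        ⟨x ^ i * y ^ j * b ^ l, hcC'⟩ := Subtype.ext hc
    rw [h2]
    exact h1
  have hi : ¬ 3 ∣ i := by
    rintro ⟨k, rfl⟩
    apply hfc
    have h3 : (⟨x, hxC⟩ : Subgroup.centralizer ({x} : Set G)) ^ 3 = 1 :=
      Subtype.ext (by simp [cfg.x3])
    rw [hfx, pow_mul, ← map_pow, h3, map_one, one_pow]
    rfl
  -- `c ^ 2 = x ^ (2 i) * y ^ J`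
  obtain ⟨J, hJ⟩ : ∃ J : ℕ, (u₁ * u₂) ^ 2 = x ^ (i + i) * y ^ J := by
    have hsq := hprod i j 0 l 0 i j 0 l 0
    have h00 : (0 : ℕ) % 2 = 0 := rfl
    rw [if_pos h00, if_pos h00] at hsq
    have hb : b ^ (l + l) = 1 := by rw [← two_mul, pow_mul, cfg.b2, one_pow]
    rw [hb] at hsq
    simp only [pow_zero, mul_one, add_zero] at hsq
    refine ⟨j + (if l % 2 = 0 then j else 2 * j), ?_⟩
    rw [pow_two, hc]
    exact hsq
  have htT : (u₁ * u₂) ^ 2 ∈ T := by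
    rw [hJ]
    exact T.mul_mem (T.pow_mem cfg.xT _) (T.pow_mem cfg.yT _)
  have ht1 : (u₁ * u₂) ^ 2 ≠ 1 := by
    intro h1
    rw [hJ] at h1
    have h2 := huniq (i + i) J 0 0 0 0 0 0 0 0 (by simp [h1])
    have h3 : (i + i) % 3 = 0 := by simpa using h2.1
    exact hi (by omega)
  -- conjugation by `u₁`, `u₂` inverts `c`
  have hu₁inv : u₁⁻¹ = u₁ := by rw [inv_eq_iff_mul_eq_one, ← pow_two, hu₁]
  have hu₂inv : u₂⁻¹ = u₂ := by rw [inv_eq_iff_mul_eq_one, ← pow_two, hu₂]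
  have hc1 : u₁ * (u₁ * u₂) * u₁⁻¹ = (u₁ * u₂)⁻¹ := by
    rw [mul_inv_rev, hu₁inv, hu₂inv, ← mul_assoc, ← pow_two, hu₁, one_mul]
  have hc2 : u₂ * (u₁ * u₂) * u₂⁻¹ = (u₁ * u₂)⁻¹ := by
    rw [mul_inv_rev, hu₁inv, hu₂inv, mul_assoc, mul_assoc, ← pow_two, hu₂, mul_one]
  have hconj : ∀ v : G, v * (u₁ * u₂) * v⁻¹ = (u₁ * u₂)⁻¹ →
      v * (u₁ * u₂) ^ 2 * v⁻¹ ∈ T := by
    intro v hv
    have h1 : v * (u₁ * u₂) ^ 2 * v⁻¹ = ((u₁ * u₂) ^ 2)⁻¹ := by
      rw [← conj_pow, hv, inv_pow]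
    rw [h1]
    exact T.inv_mem htT
  exact ⟨hti u₁ _ htT ht1 (hconj u₁ hc1), hti u₂ _ htT ht1 (hconj u₂ hc2)⟩

end Cfsg.Agent.Lib.Helper65.D8RED2
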