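import Mathlib

set_option autoImplicit false

namespace Cfsg.Agent.Lib.Helper65.RepBound

open Module

/-- the dimensions of an independent finite family of subspaces add up to at most the dimension -/
theorem sum_finrank_le {K V ι : Type*} [Field K] [AddCommGroup V] [Module K V]
    [FiniteDimensional K V] [Fintype ι] (p : ι → Submodule K V) (hp : iSupIndep p) :
    ∑ i, finrank K (p i) ≤ finrank K V := by
  classical
  have hinj := hp.dfinsupp_lsum_injective
  have h1 := LinearMap.finrank_le_finrank_of_injective hinj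
  have h2 : finrank K (Π₀ i, ↥(p i)) = ∑ i, finrank K (p i) := by
    rw [LinearEquiv.finrank_eq (DFinsupp.linearEquivFunOnFintype (R := K) (M := fun i => ↥(p i)))]
    exact Module.finrank_pi_fintype K
  rw [← h2]
  exact h1

/-- common eigenspace of the operators `ρ (z b)` with eigenvalues `χ b` -/
def ceig {G V ι : Type*} [Monoid G] [AddCommGroup V] [Module ℂ V] (ρ : G →* Module.End ℂ V)
    (z : ι → G) (χ : ι → ℂ) : Submodule ℂ V :=
  ⨅ b, Module.End.eigenspace (ρ (z b)) (χ b)

theorem mem_ceig {G V ι : Type*} [Monoid G] [AddCommGroup V] [Module ℂ V]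
    (ρ : G →* Module.End ℂ V) (z : ι → G) (χ : ι → ℂ) (v : V) :
    v ∈ ceig ρ z χ ↔ ∀ b, ρ (z b) v = χ b • v := by
  simp [ceig]

/-- the conjugate eigenspaces: `(q - 1) dim V_χ ≤ dim V` -/
theorem mul_finrank_ceig_le {G V F : Type*} [Group G] [AddCommGroup V] [Module ℂ V]
    [FiniteDimensional ℂ V] [Field F] [Fintype F] (h2 : (2 : F) = 0)
    (ρ : G →* Module.End ℂ V) (z : F → G) (hz : ∀ b b', z (b + b') = z b * z b')
    (hconj : ∀ c : F, c ≠ 0 → ∃ g : G, ∀ b, g * z b * g⁻¹ = z (c * b))
    (χ : F → ℂ) (hχ : ∀ b b', χ (b + b') = χ b * χ b') (hχ0 : χ 0 = 1) (b₀ : F)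
    (hb₀ : χ b₀ ≠ 1) :
    (Fintype.card F - 1) * finrank ℂ (ceig ρ z χ) ≤ finrank ℂ V := by
  classical
  have hcomm : ∀ b b', Commute (ρ (z b)) (ρ (z b')) := by
    intro b b'
    show ρ (z b) * ρ (z b') = ρ (z b') * ρ (z b)
    rw [← map_mul, ← map_mul, ← hz, ← hz, add_comm]
  have hindep := Module.End.independent_iInf_maxGenEigenspace_of_forall_mapsTo
    (fun b => ρ (z b))
    (fun i j φ => Module.End.mapsTo_maxGenEigenspace_of_comm (hcomm j i) φ)
  have hindep2 : iSupIndep (fun χ' : F → ℂ => ceig ρ z χ') := by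
    apply hindep.mono
    intro χ'
    exact iInf_mono (fun b => Module.End.eigenspace_le_maxGenEigenspace)
  let φ : Fˣ → (F → ℂ) := fun κ b => χ ((κ : F) * b)
  have hφ : Function.Injective φ := by
    intro κ κ' h
    by_contra hne
    have hne' : (κ : F) + (κ' : F) ≠ 0 := by
      intro h0
      apply hne
      apply Units.ext
      linear_combination h0 - (κ' : F) * h2
    apply hb₀
    have e : b₀ = (κ : F) * (b₀ / ((κ : F) + κ')) + (κ' : F) * (b₀ / ((κ : F) + κ')) := by
      field_simp
    have h1 : χ ((κ : F) * (b₀ / ((κ : F) + κ'))) = χ ((κ' : F) * (b₀ / ((κ : F) + κ'))) :=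
      congrFun h (b₀ / ((κ : F) + κ'))
    rw [e, hχ, h1, ← hχ]
    have : (κ' : F) * (b₀ / ((κ : F) + κ')) + (κ' : F) * (b₀ / ((κ : F) + κ')) = 0 := by
      linear_combination ((κ' : F) * (b₀ / ((κ : F) + κ'))) * h2
    rw [this, hχ0]
  have hindep3 : iSupIndep (fun κ : Fˣ => ceig ρ z (φ κ)) := hindep2.comp hφ
  have hsum := sum_finrank_le _ hindep3
  have hge : ∀ κ : Fˣ, finrank ℂ (ceig ρ z χ) ≤ finrank ℂ (ceig ρ z (φ κ)) := by
    intro κ
    obtain ⟨g, hg⟩ := hconj (κ : F) κ.ne_zero
    have hinj : Function.Injective (ρ g⁻¹) := by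
      intro v w hvw
      have := congrArg (ρ g) hvw
      rw [← Module.End.mul_apply, ← Module.End.mul_apply, ← map_mul, mul_inv_cancel, map_one] at this
      exact this
    have hle : (ceig ρ z χ).map (ρ g⁻¹) ≤ ceig ρ z (φ κ) := by
      rintro _ ⟨v, hv, rfl⟩
      rw [mem_ceig]
      intro b
      have hv' := (mem_ceig ρ z χ v).mp hv ((κ : F) * b)
      have e : z b * g⁻¹ = g⁻¹ * z ((κ : F) * b) := by
        rw [← hg b]
        group
      rw [← Module.End.mul_apply, ← map_mul, e, map_mul, Module.End.mul_apply, hv', map_smul]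
    calc finrank ℂ (ceig ρ z χ) = finrank ℂ ((ceig ρ z χ).map (ρ g⁻¹)) :=
          (LinearEquiv.finrank_eq (Submodule.equivMapOfInjective _ hinj _))
      _ ≤ finrank ℂ (ceig ρ z (φ κ)) := Submodule.finrank_mono hle
  calc (Fintype.card F - 1) * finrank ℂ (ceig ρ z χ)
      = ∑ _κ : Fˣ, finrank ℂ (ceig ρ z χ) := by
        rw [Finset.sum_const, Finset.card_univ, Fintype.card_units, smul_eq_mul]
    _ ≤ ∑ κ : Fˣ, finrank ℂ (ceig ρ z (φ κ)) := Finset.sum_le_sum (fun κ _ => hge κ)
    _ ≤ finrank ℂ V := hsum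

/-- an involution is semisimple -/
theorem maxGen_eq_of_sq {V : Type*} [AddCommGroup V] [Module ℂ V] [FiniteDimensional ℂ V]
    (T : Module.End ℂ V) (hT : T * T = 1) (μ : ℂ) :
    T.maxGenEigenspace μ = T.eigenspace μ := by
  have hss : T.IsSemisimple := by
    apply Module.End.isSemisimple_of_squarefree_aeval_eq_zero
      (p := Polynomial.X ^ 2 - Polynomial.C (1 : ℂ))
    · exact (Polynomial.separable_X_pow_sub_C (1 : ℂ) (by norm_num) one_ne_zero).squarefree
    · simp [pow_two, hT]
  exact hss.isFinitelySemisimple.maxGenEigenspace_eq_eigenspace μ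

/-- a family of commuting involutions, one of them not the identity, has a common eigenvector
with a non-trivial eigenvalue function -/
theorem exists_ceig {G V F : Type*} [Group G] [AddCommGroup V] [Module ℂ V]
    [FiniteDimensional ℂ V] [AddCommGroup F] (h2 : ∀ b : F, b + b = 0)
    (ρ : G →* Module.End ℂ V) (z : F → G) (hz : ∀ b b', z (b + b') = z b * z b')
    (b₀ : F) (hb₀ : ρ (z b₀) ≠ 1) :
    ∃ χ : F → ℂ, (∀ b b', χ (b + b') = χ b * χ b') ∧ χ 0 = 1 ∧ χ b₀ ≠ 1 ∧ ceig ρ z χ ≠ ⊥ := by
  have hz0 : z 0 = 1 := by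
    have := hz 0 0
    rw [add_zero] at this
    exact (mul_eq_left.mp this.symm)
  have hsq : ∀ b, ρ (z b) * ρ (z b) = 1 := by
    intro b
    rw [← map_mul, ← hz, h2, hz0, map_one]
  have hcomm : Pairwise fun b b' => Commute (ρ (z b)) (ρ (z b')) := by
    intro b b' _
    show ρ (z b) * ρ (z b') = ρ (z b') * ρ (z b)
    rw [← map_mul, ← map_mul, ← hz, ← hz, add_comm]
  have htop := Module.End.iSup_iInf_maxGenEigenspace_eq_top_of_iSup_maxGenEigenspace_eq_top_of_commute
    (fun b => ρ (z b)) hcomm (fun b => Module.End.iSup_maxGenEigenspace_eq_top _)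
  have htop' : ⨆ χ : F → ℂ, ceig ρ z χ = ⊤ := by
    rw [← htop]
    congr 1
    funext χ
    unfold ceig
    congr 1
    funext b
    rw [maxGen_eq_of_sq _ (hsq b)]
  by_contra hcon
  push Not at hcon
  apply hb₀
  have hle : (⊤ : Submodule ℂ V) ≤ Module.End.eigenspace (ρ (z b₀)) 1 := by
    rw [← htop']
    apply iSup_le
    intro χ
    by_cases hχ : ceig ρ z χ = ⊥
    · rw [hχ]
      exact bot_le
    · obtain ⟨v, hv, hv0⟩ := (Submodule.ne_bot_iff _).mp hχ
      have hv' := (mem_ceig ρ z χ v).mp hv
      have hmul : ∀ b b', χ (b + b') = χ b * χ b' := by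
        intro b b'
        have h1 := hv' (b + b')
        rw [hz, map_mul, Module.End.mul_apply, hv' b', map_smul, hv' b, smul_smul] at h1
        have h3 : (χ b' * χ b - χ (b + b')) • v = 0 := by
          rw [sub_smul, h1, sub_self]
        rcases smul_eq_zero.mp h3 with h | h
        · linear_combination -h
        · exact absurd h hv0
      have h0 : χ 0 = 1 := by
        have h1 := hv' 0
        rw [hz0, map_one, Module.End.one_apply] at h1
        have h3 : (1 - χ 0) • v = 0 := by
          rw [sub_smul, one_smul, ← h1, sub_self]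
        rcases smul_eq_zero.mp h3 with h | h
        · linear_combination -h
        · exact absurd h hv0
      have hχ1 : χ b₀ = 1 := by
        by_contra hne
        exact hχ (hcon χ hmul h0 hne)
      intro w hw
      rw [Module.End.mem_eigenspace_iff, one_smul]
      have := (mem_ceig ρ z χ w).mp hw b₀
      rw [this, hχ1, one_smul]
  apply LinearMap.ext
  intro v
  have := hle (Submodule.mem_top : v ∈ ⊤)
  rw [Module.End.mem_eigenspace_iff, one_smul] at this
  rw [this, Module.End.one_apply]


/-- Heisenberg-type bound: if the operators `σ x` commute up to the scalars `c x y` and at most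
`r` elements share the same scalar function, then `|E| ≤ r (dim W)²`. -/
theorem card_le_mul_finrank_sq {E : Type*} [Group E] [Finite E] {W : Type*} [AddCommGroup W]
    [Module ℂ W] [FiniteDimensional ℂ W] [Nontrivial W] (σ : E →* Module.End ℂ W)
    (c : E → E → ℂ) (hc : ∀ x y, σ y * σ x = c x y • (σ x * σ y)) (r : ℕ)
    (hr : ∀ x, Nat.card {x' : E // ∀ y, c x' y = c x y} ≤ r) :
    Nat.card E ≤ r * (finrank ℂ W) ^ 2 := by
  classical
  have : Fintype E := Fintype.ofFinite E
  -- the conjugation operators on `End W`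
  let f : E → Module.End ℂ (Module.End ℂ W) := fun y =>
    (LinearMap.mulLeft ℂ (σ y)).comp (LinearMap.mulRight ℂ (σ y⁻¹))
  have hf : ∀ y T, f y T = σ y * (T * σ y⁻¹) := fun y T => rfl
  have hmul : ∀ y y' T, f y (f y' T) = σ (y * y') * (T * σ (y * y')⁻¹) := by
    intro y y' T
    rw [hf, hf, mul_inv_rev, map_mul, map_mul]
    simp only [mul_assoc]
  have hcomm : ∀ y y', Commute (f y) (f y') := by
    intro y y'
    have e1 : σ (y' * y) = c y y' • σ (y * y') := by
      rw [map_mul, map_mul]
      exact hc y y'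
    have e2 : c y y' • σ (y' * y)⁻¹ = σ (y * y')⁻¹ := by
      calc c y y' • σ (y' * y)⁻¹
          = (c y y' • σ (y' * y)⁻¹) * (σ (y * y') * σ (y * y')⁻¹) := by
            rw [← map_mul, mul_inv_cancel, map_one, mul_one]
        _ = (σ (y' * y)⁻¹ * (c y y' • σ (y * y'))) * σ (y * y')⁻¹ := by
            simp only [mul_assoc, smul_mul_assoc, mul_smul_comm]
        _ = σ (y * y')⁻¹ := by
            rw [← e1, ← map_mul, inv_mul_cancel, map_one, one_mul]
    apply LinearMap.ext
    intro T
    show f y (f y' T) = f y' (f y T)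
    rw [hmul, hmul, e1, ← e2]
    simp only [smul_mul_assoc, mul_smul_comm]
  have hindep := Module.End.independent_iInf_maxGenEigenspace_of_forall_mapsTo f
    (fun i j φ => Module.End.mapsTo_maxGenEigenspace_of_comm (hcomm j i) φ)
  set p : (E → ℂ) → Submodule ℂ (Module.End ℂ W) :=
    fun χ => ⨅ i, (f i).maxGenEigenspace (χ i) with hp
  have hne : ∀ x, σ x ≠ 0 := by
    intro x h
    have : σ x * σ x⁻¹ = 1 := by rw [← map_mul, mul_inv_cancel, map_one]
    rw [h, zero_mul] at this
    exact zero_ne_one this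
  have hmem : ∀ x, p (c x) ≠ ⊥ := by
    intro x h
    have h1 : σ x ∈ p (c x) := by
      rw [hp]
      simp only [Submodule.mem_iInf]
      intro y
      apply Module.End.eigenspace_le_maxGenEigenspace
      rw [Module.End.mem_eigenspace_iff, hf, ← mul_assoc, hc, smul_mul_assoc, mul_assoc,
        ← map_mul, mul_inv_cancel, map_one, mul_one]
    rw [h] at h1
    exact hne x ((Submodule.mem_bot ℂ).mp h1)
  let _ := hindep.fintypeNeBotOfFiniteDimensional
  have hcount := hindep.subtype_ne_bot_le_finrank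
  have hfin : finrank ℂ (Module.End ℂ W) = (finrank ℂ W) ^ 2 := by
    rw [Module.finrank_linearMap, pow_two]
  rw [hfin] at hcount
  have h1 : (Finset.univ : Finset E).card ≤ r * ((Finset.univ : Finset E).image c).card := by
    apply Finset.card_le_mul_card_image
    intro a ha
    obtain ⟨x, _, rfl⟩ := Finset.mem_image.mp ha
    have := hr x
    rw [Nat.card_eq_fintype_card, Fintype.card_subtype] at this
    convert this using 2
    ext x'
    simp [funext_iff]
  have h2 : ((Finset.univ : Finset E).image c).card ≤ Fintype.card {χ // p χ ≠ ⊥} := by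
    have h3 : ((Finset.univ : Finset E).image c).card =
        (((Finset.univ : Finset E).image c).subtype (fun χ => p χ ≠ ⊥)).card := by
      rw [Finset.card_subtype, Finset.filter_true_of_mem]
      intro χ hχ
      obtain ⟨x, _, rfl⟩ := Finset.mem_image.mp hχ
      exact hmem x
    rw [h3]
    exact Finset.card_le_univ _
  rw [Nat.card_eq_fintype_card, ← Finset.card_univ]
  calc (Finset.univ : Finset E).card ≤ r * ((Finset.univ : Finset E).image c).card := h1
    _ ≤ r * Fintype.card {χ // p χ ≠ ⊥} := Nat.mul_le_mul_left _ h2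
    _ ≤ r * (finrank ℂ W) ^ 2 := Nat.mul_le_mul_left _ hcount

/-- restriction of a representation to a subgroup and an invariant subspace -/
def restr {G V : Type*} [Group G] [AddCommGroup V] [Module ℂ V] (ρ : G →* Module.End ℂ V)
    (U : Subgroup G) (W : Submodule ℂ V) (h : ∀ u ∈ U, ∀ w ∈ W, ρ u w ∈ W) :
    U →* Module.End ℂ W where
  toFun u := (ρ u).restrict (fun w hw => h u u.2 w hw)
  map_one' := by
    ext
    simp
  map_mul' x y := by
    ext
    simp

theorem restr_apply {G V : Type*} [Group G] [AddCommGroup V] [Module ℂ V]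
    (ρ : G →* Module.End ℂ V) (U : Subgroup G) (W : Submodule ℂ V)
    (h : ∀ u ∈ U, ∀ w ∈ W, ρ u w ∈ W) (u : U) (w : W) :
    ((restr ρ U W h u w : W) : V) = ρ u w := rfl

end Cfsg.Agent.Lib.Helper65.RepBound
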