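import Mathlib
import Cfsg.Agent.Lib.Helper25.ACStmt

/-!
# S3912 / CYCCHAIN (call by helper25)

Commuting elements of a finite 2-group with a unique involution: one is a power of the other.
-/

set_option autoImplicit false

namespace Cfsg.Agent.Lib.Helper65.ACCYCCHAIN

open Cfsg.Agent.Lib.Helper25.ACStmt

universe u

/-- one step: `c ^ 2 ∈ ⟨x⟩`, `o(c) ≤ o(x)`, `c x = x c` give `c ∈ ⟨x⟩` -/
theorem step {P : Type u} [Group P] [Finite P] (hP : IsPGroup 2 P) (z : P)
    (hinv : ∀ x : P, x ^ 2 = 1 → x = 1 ∨ x = z) (c x : P) (hcx : c * x = x * c)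
    (hle : orderOf c ≤ orderOf x) (h2 : c ^ 2 ∈ Subgroup.zpowers x) :
    c ∈ Subgroup.zpowers x := by
  have : Fact (Nat.Prime 2) := ⟨Nat.prime_two⟩
  by_cases hc1 : c = 1
  · rw [hc1]
    exact Subgroup.one_mem _
  have hcomm : Commute c x := hcx
  obtain ⟨j, hj⟩ := (IsPGroup.iff_orderOf.mp hP) c
  obtain ⟨k, hk⟩ := (IsPGroup.iff_orderOf.mp hP) x
  have hj1 : 1 ≤ j := by
    rcases Nat.eq_zero_or_pos j with h | h
    · rw [h, pow_zero] at hj
      exact absurd (orderOf_eq_one_iff.mp hj) hc1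
    · exact h
  have hk1 : 1 ≤ k := by
    rw [hj, hk] at hle
    have := (Nat.pow_le_pow_iff_right (by norm_num : 1 < 2)).mp hle
    omega
  obtain ⟨m, hm⟩ : ∃ m : ℕ, x ^ m = c ^ 2 :=
    (Submonoid.mem_powers_iff (c ^ 2) x).mp
      ((mem_powers_iff_mem_zpowers (x := x) (y := c ^ 2)).mpr h2)
  have hmeven : Even m := by
    by_contra hodd
    rw [Nat.not_even_iff_odd] at hodd
    have h1 : orderOf (x ^ m) = orderOf x := by
      rw [orderOf_pow, hk]
      have hg : Nat.gcd (2 ^ k) m = 1 :=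
        Nat.Coprime.pow_left k (Nat.coprime_two_left.mpr hodd)
      rw [hg, Nat.div_one]
    have h2' : orderOf (c ^ 2) < orderOf c := by
      rw [orderOf_pow, hj]
      have hg : Nat.gcd (2 ^ j) 2 = 2 :=
        Nat.gcd_eq_right (dvd_pow_self 2 (by omega))
      rw [hg]
      exact Nat.div_lt_self (by positivity) (by norm_num)
    rw [hm] at h1
    omega
  obtain ⟨m', hm'⟩ := hmeven
  have hu : (c * (x ^ m')⁻¹) ^ 2 = 1 := by
    have hc' : Commute c (x ^ m')⁻¹ := (hcomm.pow_right m').inv_right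
    rw [hc'.mul_pow, inv_pow, ← pow_mul, ← hm, hm', ← two_mul, mul_comm 2 m']
    exact mul_inv_cancel _
  -- `z ∈ ⟨x⟩`
  have hz : z ∈ Subgroup.zpowers x ∨ c * (x ^ m')⁻¹ = 1 := by
    rcases hinv _ hu with h | h
    · exact Or.inr h
    · left
      have hw2 : (x ^ 2 ^ (k - 1)) ^ 2 = 1 := by
        rw [← pow_mul, ← pow_succ, show k - 1 + 1 = k by omega, ← hk, pow_orderOf_eq_one]
      have hw1 : x ^ 2 ^ (k - 1) ≠ 1 := by
        intro h1
        have hd := orderOf_dvd_of_pow_eq_one h1
        rw [hk] at hd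
        have hle2 := Nat.le_of_dvd (by positivity) hd
        have hlt : 2 ^ (k - 1) < 2 ^ k := Nat.pow_lt_pow_right (by norm_num) (by omega)
        omega
      rcases hinv _ hw2 with h1 | h1
      · exact absurd h1 hw1
      · rw [← h1]
        exact Subgroup.pow_mem _ (Subgroup.mem_zpowers x) _
  have hxm : x ^ m' ∈ Subgroup.zpowers x := Subgroup.pow_mem _ (Subgroup.mem_zpowers x) _
  rcases hinv _ hu with h | h
  · have : c = x ^ m' := by
      rw [mul_inv_eq_one] at h
      exact h
    rw [this]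
    exact hxm
  · have hzx : z ∈ Subgroup.zpowers x := by
      rcases hz with h' | h'
      · exact h'
      · rw [h'] at h
        rw [← h]
        exact Subgroup.one_mem _
    have : c = z * x ^ m' := by
      rw [← h, inv_mul_cancel_right]
    rw [this]
    exact Subgroup.mul_mem _ hzx hxm

theorem chain {P : Type u} [Group P] [Finite P] (hP : IsPGroup 2 P) (z : P)
    (hinv : ∀ x : P, x ^ 2 = 1 → x = 1 ∨ x = z) (c x : P) (hcx : c * x = x * c)
    (hle : orderOf c ≤ orderOf x) : c ∈ Subgroup.zpowers x := by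
  have : Fact (Nat.Prime 2) := ⟨Nat.prime_two⟩
  obtain ⟨j, hj⟩ := (IsPGroup.iff_orderOf.mp hP) c
  have key : ∀ n : ℕ, ∀ c : P, c * x = x * c → orderOf c ≤ orderOf x →
      c ^ (2 ^ n) ∈ Subgroup.zpowers x → c ∈ Subgroup.zpowers x := by
    intro n
    induction n with
    | zero =>
      intro c _ _ h
      simpa using h
    | succ n ih =>
      intro c hc hle h
      have h2 : c ^ 2 ∈ Subgroup.zpowers x := by
        apply ih (c ^ 2)
        · exact ((show Commute c x from hc).pow_left 2).eq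
        · exact le_trans (Nat.le_of_dvd (orderOf_pos c) (orderOf_pow_dvd 2)) hle
        · rw [← pow_mul, show 2 * 2 ^ n = 2 ^ (n + 1) by ring]
          exact h
      exact step hP z hinv c x hc hle h2
  apply key j c hcx hle
  rw [← hj, pow_orderOf_eq_one]
  exact Subgroup.one_mem _

theorem main : CycChain.{u} := by
  intro P _ _ hP z _ hinv c x hcx
  rcases le_total (orderOf c) (orderOf x) with h | h
  · exact Or.inl (chain hP z hinv c x hcx h)
  · exact Or.inr (chain hP z hinv x c hcx.symm h)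

end Cfsg.Agent.Lib.Helper65.ACCYCCHAIN
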