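import Mathlib
import Cfsg.Agent.Lib.Helper25.ACStmt
import Cfsg.Agent.Lib.Helper25.ACOddStmt

/-!
# S3911 piece PGROUPCASE (call of helper25): glue of CaseE, UniqSub, QuotOdd
-/

set_option autoImplicit false

universe u

namespace Cfsg.Agent.Lib.Helper65.AOPGROUPCASE

open Cfsg.Agent.Lib.Helper25.ACStmt Cfsg.Agent.Lib.Helper25.ACOddStmt

theorem main (hE : CaseE.{u}) (hU : UniqSub.{u}) (hO : QuotOdd.{u}) : PGroupCase.{u} := by
  intro G _ _ hB r hrf h2 N₀ hN₀n hN₀p hN₀ne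
  have hr : r.Prime := hrf.out
  obtain ⟨R⟩ : Nonempty (Sylow r G) := inferInstance
  by_cases hexp : ∀ x ∈ (R : Subgroup G), x ^ r = 1
  · have := hN₀n
    exact ⟨N₀, hN₀n, hN₀ne, le_refl _, hE G hB r R N₀ hN₀p hN₀ne hexp⟩
  · have hexp' : ∃ x ∈ (R : Subgroup G), x ^ r ≠ 1 := by
      by_contra hcon
      apply hexp
      intro x hx
      by_contra hne
      exact hcon ⟨x, hx, hne⟩
    obtain ⟨Z₀, hZn, hZc, hZN, hZall⟩ := hU G hB r R N₀ hN₀n hN₀p hN₀ne hexp'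
    have hZne : Z₀ ≠ ⊥ := by
      rintro rfl
      rw [Subgroup.card_bot] at hZc
      exact hr.one_lt.ne' hZc.symm
    have := hZn
    exact ⟨Z₀, hZn, hZne, hZN, hO G hB r h2 Z₀ hZc hZall⟩

end Cfsg.Agent.Lib.Helper65.AOPGROUPCASE
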