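import Mathlib
import Cfsg.Agent.Lib.Helper44.BCStmt
import Cfsg.Agent.Lib.Helper42.SpOrdD

/-! S2362, piece PSPELT: `PSp(2n, q)` has an element of order `p * (q ^ (n-1) + 1)`. -/

set_option autoImplicit false

namespace Cfsg.Agent.Lib.Helper65.BCPSPELT

open Matrix
open Cfsg.Agent.Lib.Helper44.BCStmt
open Cfsg.Agent.Lib.Helper42.SpOrdC Cfsg.Agent.Lib.Helper42.SpOrdD
open Cfsg.Agent.Lib.Helper43.SpBasic (pr)

universe u

/-- the unipotent element of `Sp_2` -/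
def Umat (F : Type u) [Field F] : Matrix (Fin 1 ⊕ Fin 1) (Fin 1 ⊕ Fin 1) F :=
  Matrix.fromBlocks 1 1 0 1

theorem Umat_pow (F : Type u) [Field F] (j : ℕ) :
    Umat F ^ j = Matrix.fromBlocks 1 ((j : F) • (1 : Matrix (Fin 1) (Fin 1) F)) 0 1 := by
  induction j with
  | zero =>
    rw [pow_zero, Nat.cast_zero, zero_smul, Matrix.fromBlocks_one]
  | succ j ih =>
    rw [pow_succ, ih, Umat, Matrix.fromBlocks_multiply]
    congr 1
    · simp
    · rw [mul_one, mul_one, Nat.cast_succ, add_smul, one_smul, add_comm]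
    · simp
    · simp

theorem Umat_mem (F : Type u) [Field F] : Umat F ∈ Matrix.symplecticGroup (Fin 1) F := by
  rw [SymplecticGroup.mem_iff]
  unfold Umat Matrix.J
  rw [Matrix.fromBlocks_transpose, Matrix.fromBlocks_multiply, Matrix.fromBlocks_multiply]
  simp

theorem Umat_pow_eq_smul (F : Type u) [Field F] (j : ℕ) (c : F) :
    Umat F ^ j = c • (1 : Matrix (Fin 1 ⊕ Fin 1) (Fin 1 ⊕ Fin 1) F) ↔ c = 1 ∧ (j : F) = 0 := by
  rw [Umat_pow, ← Matrix.fromBlocks_one, Matrix.fromBlocks_smul, Matrix.fromBlocks_inj]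
  constructor
  · rintro ⟨h1, h2, -, -⟩
    have e1 := congrFun (congrFun h1 0) 0
    have e2 := congrFun (congrFun h2 0) 0
    simp at e1 e2
    exact ⟨e1.symm, e2⟩
  · rintro ⟨rfl, h⟩
    refine ⟨by rw [one_smul], by rw [h, zero_smul, smul_zero], by rw [smul_zero],
      by rw [one_smul]⟩

theorem main : PspElt.{u} := by
  intro F _ _ p _ _ hp2 n hn
  obtain ⟨m, rfl⟩ : ∃ m, n = 1 + m := ⟨n - 1, by omega⟩
  have hm : 2 ≤ m := by omega
  have hpp : p.Prime := Fact.out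
  have h2 : (2 : F) ≠ 0 := by
    intro h
    have h' : ((2 : ℕ) : F) = 0 := by exact_mod_cast h
    rw [CharP.cast_eq_zero_iff F p] at h'
    exact hp2 ((Nat.prime_dvd_prime_iff_eq hpp Nat.prime_two).mp h')
  obtain ⟨k, -, hk⟩ := FiniteField.card F p
  have hpq : p ∣ Fintype.card F := by
    rw [hk]
    exact dvd_pow_self p k.ne_zero
  have hq3 : 3 ≤ Fintype.card F := by
    have h1 : p ≤ Fintype.card F := Nat.le_of_dvd Fintype.card_pos hpq
    have h3 : 2 ≤ p := hpp.two_le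
    omega
  have hM3 : 3 ≤ Fintype.card F ^ m + 1 := by
    have : Fintype.card F ^ 1 ≤ Fintype.card F ^ m :=
      Nat.pow_le_pow_right (by omega) (by omega)
    rw [pow_one] at this
    omega
  have hcop : Nat.Coprime p (Fintype.card F ^ m + 1) := by
    rw [Nat.Prime.coprime_iff_not_dvd hpp]
    intro h
    have h1 : p ∣ Fintype.card F ^ m := dvd_pow hpq (by omega)
    have h3 : p ∣ 1 := (Nat.dvd_add_right h1).mp h
    exact hpp.one_lt.ne' (Nat.dvd_one.mp h3)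
  obtain ⟨X, hX⟩ := torus_plus_n p (by omega : 1 ≤ m) h2 (Fintype.card F ^ m + 1) dvd_rfl hM3
  refine ⟨pr (⟨blk (Umat F) (X : Matrix (Fin m ⊕ Fin m) (Fin m ⊕ Fin m) F),
    blk_mem _ _ (Umat_mem F) X.2⟩ : Matrix.symplecticGroup (Fin (1 + m)) F), ?_⟩
  rw [Nat.add_sub_cancel_left]
  apply orderOf_eq_of_pow_iff
  intro j
  rw [pr_pow_eq_one_iff (by omega)]
  show (∃ c : F, c * c = 1 ∧
    blk (Umat F) (X : Matrix (Fin m ⊕ Fin m) (Fin m ⊕ Fin m) F) ^ j = c • 1) ↔ _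
  constructor
  · rintro ⟨c, hcc, hc⟩
    rw [blk_pow, ← blk_one, ← blk_smul] at hc
    obtain ⟨hU, hXj⟩ := blk_inj _ _ _ _ hc
    obtain ⟨hc1, hj0⟩ := (Umat_pow_eq_smul F j c).mp hU
    have hpj : p ∣ j := (CharP.cast_eq_zero_iff F p j).mp hj0
    rw [hc1, one_smul] at hXj
    have hMj : Fintype.card F ^ m + 1 ∣ j := by
      rw [← hX]
      exact orderOf_dvd_of_pow_eq_one ((sp_pow_eq_one_iff X j).mpr hXj)
    exact Nat.Coprime.mul_dvd_of_dvd_of_dvd hcop hpj hMj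
  · rintro ⟨s, rfl⟩
    refine ⟨1, one_mul 1, ?_⟩
    rw [blk_pow, one_smul, ← blk_one]
    have e1 : Umat F ^ (p * (Fintype.card F ^ m + 1) * s) = 1 := by
      have := (Umat_pow_eq_smul F (p * (Fintype.card F ^ m + 1) * s) 1).mpr
        ⟨rfl, by rw [mul_assoc, Nat.cast_mul, CharP.cast_eq_zero F p, zero_mul]⟩
      rw [this, one_smul]
    have e2 : (X : Matrix (Fin m ⊕ Fin m) (Fin m ⊕ Fin m) F) ^
        (p * (Fintype.card F ^ m + 1) * s) = 1 := by
      apply (sp_pow_eq_one_iff X _).mp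
      apply orderOf_dvd_iff_pow_eq_one.mp
      rw [hX]
      exact ⟨p * s, by ring⟩
    rw [e1, e2]

end Cfsg.Agent.Lib.Helper65.BCPSPELT
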