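import Mathlib

/-!
# S4025, piece CARD: the order of the quotient by a normal `p'`-subgroup
-/

set_option autoImplicit false

namespace Cfsg.Agent.Lib.Helper65.EqCARD

universe u

theorem card_quot_dvd {M : Type u} [Group M] [Finite M] (Q : Subgroup M) [Q.Normal]
    (hQc : ∀ a b : Q, a * b = b * a) (K : Subgroup M) [K.Normal]
    (hcop : (Nat.card K).Coprime (Nat.card Q)) :
    Nat.card Q * Nat.card (MulAut.conjNormal (H := Q) : M →* MulAut Q).range ∣
      Nat.card (M ⧸ K) := by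
  set φ : M →* MulAut Q := MulAut.conjNormal (H := Q) with hφ
  have hQC : Q ≤ φ.ker := by
    intro q hq
    rw [MonoidHom.mem_ker]
    apply MulEquiv.ext
    intro x
    apply Subtype.ext
    rw [hφ, MulAut.conjNormal_apply, MulAut.one_apply]
    have h := congrArg Subtype.val (hQc ⟨q, hq⟩ x)
    simp only [Subgroup.coe_mul] at h
    rw [h, mul_inv_cancel_right]
  have hinf : K ⊓ Q = ⊥ := (Subgroup.disjoint_of_coprime_natCard hcop).eq_bot
  have hKC : K ≤ φ.ker := by
    intro k hk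
    rw [MonoidHom.mem_ker]
    apply MulEquiv.ext
    intro x
    apply Subtype.ext
    rw [hφ, MulAut.conjNormal_apply, MulAut.one_apply]
    have h1 : k * (x : M) * k⁻¹ * (x : M)⁻¹ ∈ K := by
      have h2 : (x : M) * k⁻¹ * (x : M)⁻¹ ∈ K :=
        (inferInstance : K.Normal).conj_mem _ (K.inv_mem hk) _
      have h3 : k * (x : M) * k⁻¹ * (x : M)⁻¹ = k * ((x : M) * k⁻¹ * (x : M)⁻¹) := by group
      rw [h3]
      exact K.mul_mem hk h2
    have h2 : k * (x : M) * k⁻¹ * (x : M)⁻¹ ∈ Q := by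
      have h4 : k * (x : M) * k⁻¹ ∈ Q := (inferInstance : Q.Normal).conj_mem _ x.2 _
      exact Q.mul_mem h4 (Q.inv_mem x.2)
    have h3 : k * (x : M) * k⁻¹ * (x : M)⁻¹ ∈ K ⊓ Q := ⟨h1, h2⟩
    rw [hinf, Subgroup.mem_bot] at h3
    exact mul_inv_eq_one.mp h3
  have hd1 : Nat.card Q ∣ Nat.card φ.ker := Subgroup.card_dvd_of_le hQC
  have hd2 : Nat.card K ∣ Nat.card φ.ker := Subgroup.card_dvd_of_le hKC
  obtain ⟨c, hc⟩ : Nat.card K * Nat.card Q ∣ Nat.card φ.ker :=
    Nat.Coprime.mul_dvd_of_dvd_of_dvd hcop hd2 hd1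
  have hM1 : Nat.card φ.ker * Nat.card φ.range = Nat.card M := by
    rw [← Subgroup.index_ker, Subgroup.card_mul_index]
  have hM2 : Nat.card M = Nat.card (M ⧸ K) * Nat.card K :=
    Subgroup.card_eq_card_quotient_mul_card_subgroup K
  have hKpos : 0 < Nat.card K := Nat.card_pos
  refine ⟨c, ?_⟩
  have h : Nat.card K * Nat.card (M ⧸ K) = Nat.card K * (Nat.card Q * Nat.card φ.range * c) := by
    rw [mul_comm (Nat.card K) (Nat.card (M ⧸ K)), ← hM2, ← hM1, hc]
    ring
  exact Nat.eq_of_mul_eq_mul_left hKpos h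

end Cfsg.Agent.Lib.Helper65.EqCARD
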