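import Mathlib

/-!
# S4025, piece LIN: a semilinear map of order prime to the Galois group is linear
-/

set_option autoImplicit false

namespace Cfsg.Agent.Lib.Helper65.EqLIN

universe u

theorem linear_of_coprime {Q : Type u} [Group Q] [Finite Q] {F : Type*} [Field F] [Finite F]
    (e : Additive Q ≃+ F) (s : MulAut Q) (a : F) (σ : F ≃+* F)
    (hs : ∀ x : Q, e (Additive.ofMul (s x)) = a * σ (e (Additive.ofMul x))) (m : ℕ)
    (hm : s ^ m = 1) (hcop : m.Coprime (Nat.card (F ≃+* F))) : σ = RingEquiv.refl F := by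
  have key : ∀ k : ℕ, ∃ b : F, ∀ x : Q,
      e (Additive.ofMul ((s ^ k) x)) = b * (σ ^ k) (e (Additive.ofMul x)) := by
    intro k
    induction k with
    | zero =>
      refine ⟨1, fun x => ?_⟩
      rw [pow_zero, pow_zero, one_mul]
      rfl
    | succ k ih =>
      obtain ⟨b, hb⟩ := ih
      refine ⟨a * σ b, fun x => ?_⟩
      rw [pow_succ', pow_succ', MulAut.mul_apply, hs, hb, map_mul, RingAut.mul_apply, mul_assoc]
  obtain ⟨b, hb⟩ := key m
  rw [hm] at hb
  have hb1 : b = 1 := by
    have h := hb (e.symm 1).toMul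
    have h1 : e (Additive.ofMul ((e.symm 1).toMul)) = 1 := e.apply_symm_apply 1
    rw [MulAut.one_apply, h1, map_one, mul_one] at h
    exact h.symm
  have hσm : σ ^ m = 1 := by
    apply RingEquiv.ext
    intro y
    have h := hb (e.symm y).toMul
    have h1 : e (Additive.ofMul ((e.symm y).toMul)) = y := e.apply_symm_apply y
    rw [MulAut.one_apply, h1, hb1, one_mul] at h
    rw [← h]
    rfl
  have h1 : orderOf σ ∣ m := orderOf_dvd_of_pow_eq_one hσm
  have h2 : orderOf σ ∣ Nat.card (F ≃+* F) := orderOf_dvd_natCard σ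
  have h3 : orderOf σ = 1 := Nat.eq_one_of_dvd_coprimes hcop h1 h2
  exact orderOf_eq_one_iff.mp h3

end Cfsg.Agent.Lib.Helper65.EqLIN
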