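import Mathlib
import Cfsg.Agent.S2904
import Cfsg.Agent.Lib.Helper65.PSL2Real
import Cfsg.Agent.Lib.Helper65.ModBound2
import Cfsg.Agent.Lib.Helper65.L2Mod

/-!
Variant of `L2Mod.l2_bounds` with the hypothesis `2 ≤ n` given directly, and the version for a
group `H ≅ SL(2, p ^ n)`.
-/

set_option autoImplicit false

namespace Cfsg.Agent.Lib.Helper65.L2Mod2

open Matrix

/-- the key hypothesis of `ModBound2.bounds` for a quotient `PSL(2, p ^ n)`, `n ≥ 2` -/
theorem l2_key {G : Type*} [Group G] [Finite G] (V H : Subgroup G) {p : ℕ} (hp : p.Prime)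
    (hV : ∀ a ∈ V, a ^ p = 1) (hHV : H ≤ Subgroup.normalizer (V : Set G))
    (hf : H ⊓ Subgroup.centralizer (V : Set G) = ⊥)
    {F : Type*} [Field F] [Fintype F] (n : ℕ) (hn2 : 2 ≤ n) (hF : Fintype.card F = p ^ n)
    (π : ↥H →* ProjectiveSpecialLinearGroup (Fin 2) F) (hπ : Function.Surjective π)
    (hker : (Nat.card π.ker).Coprime p) :
    ∀ s₀ ∈ H, s₀ ≠ 1 → s₀ ^ p = 1 → ∃ h ∈ H, ∃ j : ℕ,
      (p ^ n) ^ 2 ≤
        (V ⊓ Subgroup.centralizer ({(s₀ * (h * s₀ * h⁻¹)) ^ j} : Set G)).relIndex V := by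
  classical
  have : Fact p.Prime := ⟨hp⟩
  have hch : CharP F p := charP_of_card_eq_prime_pow hF
  have hn1 : 1 ≤ n := by omega
  by_cases hex : p = 2 ∧ n = 3
  · obtain ⟨rfl, rfl⟩ := hex
    obtain ⟨y, hy⟩ := Cfsg.Agent.Lib.Helper59.PSL2Spec.exists_orderOf_eq_of_dvd_add
      (F := F) 2 9 (by rw [hF]; norm_num)
    exact Cfsg.Agent.Lib.Helper65.ModBound2.key_of_quotient V H hp hV hHV hf π hπ hker
      (p := 3) (a := 1) Nat.prime_three (by norm_num)
      (fun t ht1 ht => Cfsg.Agent.Lib.Helper65.PSL2Real.exists_conj_prod hn1 hF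
        (by decide : Odd 9) (by norm_num) y hy t ht1 ht) (2 ^ 3) (by
        intro k hk1 hkd
        by_contra hlt
        have hk6 : k < 6 := by
          by_contra h6
          apply hlt
          rw [← pow_mul]
          exact Nat.pow_le_pow_right (by norm_num) (by omega)
        interval_cases k <;> omega)
  · obtain ⟨r, hr, hrd, hprim⟩ := Cfsg.Agent.S2904.result p (2 * n) hp.one_lt (by omega)
      (fun ⟨h1, h2⟩ => hex ⟨h1, by omega⟩) (fun ⟨h1, _⟩ => by omega)
    obtain ⟨hrp, hr2, hrq⟩ := Cfsg.Agent.Lib.Helper65.L2Mod.zsig_facts hp hn1 hr hrd hprim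
    obtain ⟨y, hy⟩ := Cfsg.Agent.Lib.Helper59.PSL2Spec.exists_orderOf_eq_of_dvd_add
      (F := F) p r (by rw [hF]; exact hrq)
    have hodd : Odd r := hr.odd_of_ne_two hr2
    exact Cfsg.Agent.Lib.Helper65.ModBound2.key_of_quotient V H hp hV hHV hf π hπ hker
      (p := r) (a := 0) hr hrp
      (fun t ht1 ht => by
        rw [zero_add, pow_one]
        exact Cfsg.Agent.Lib.Helper65.PSL2Real.exists_conj_prod hn1 hF hodd hr.one_lt.ne'
          y hy t ht1 ht) (p ^ n) (by
        intro k hk1 hkd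
        rw [zero_add, pow_one] at hkd
        have hk2 : 2 * n ≤ k := by
          by_contra hlt
          exact hprim k (by omega) (by omega) hkd
        rw [← pow_mul]
        exact Nat.pow_le_pow_right hp.pos (by omega))

/-- the projection `SL(2, F) → PSL(2, F)` has kernel of order prime to the characteristic -/
theorem card_center_coprime {F : Type*} [Field F] [Fintype F] {p n : ℕ} (hp : p.Prime)
    (hF : Fintype.card F = p ^ n) :
    (Nat.card (Subgroup.center (SpecialLinearGroup (Fin 2) F))).Coprime p := by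
  have : Fact p.Prime := ⟨hp⟩
  have hn0 : n ≠ 0 := by
    rintro rfl
    have := Fintype.one_lt_card (α := F)
    rw [hF] at this
    simp at this
  have h3 := Subgroup.card_eq_card_quotient_mul_card_subgroup
    (Subgroup.center (SpecialLinearGroup (Fin 2) F))
  rw [Cfsg.Agent.Lib.Helper43.PSL2Basic.card_SL2] at h3
  have h4 : Nat.card (ProjectiveSpecialLinearGroup (Fin 2) F) =
      Nat.card (SpecialLinearGroup (Fin 2) F ⧸
        Subgroup.center (SpecialLinearGroup (Fin 2) F)) := rfl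
  have h1 := Subgroup.index_mul_card (Cfsg.Agent.Lib.Helper43.PSL2Basic.uHom (F := F)).range
  have h2 : Nat.card (Cfsg.Agent.Lib.Helper43.PSL2Basic.uHom (F := F)).range
      = Fintype.card F := by
    rw [Nat.card_congr (MonoidHom.ofInjective
      Cfsg.Agent.Lib.Helper43.PSL2Basic.uHom_injective).toEquiv.symm,
      Nat.card_eq_fintype_card, Fintype.card_multiplicative]
  rw [← h4, ← h1, h2] at h3
  have hq : 0 < Fintype.card F := Fintype.card_pos
  have h5 : Fintype.card F ^ 2 - 1 = (Cfsg.Agent.Lib.Helper43.PSL2Basic.uHom (F := F)).range.index *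
      Nat.card (Subgroup.center (SpecialLinearGroup (Fin 2) F)) := by
    apply Nat.eq_of_mul_eq_mul_left hq
    rw [h3]
    ring
  have hpn : p ∣ Fintype.card F := by
    rw [hF]
    exact dvd_pow_self p hn0
  have h0 : 1 ≤ Fintype.card F ^ 2 := Nat.one_le_pow _ _ hq
  have hnot : ¬ p ∣ Fintype.card F ^ 2 - 1 := by
    intro h6
    have h7 : p ∣ Fintype.card F ^ 2 := Dvd.dvd.pow hpn (by norm_num)
    have h8 : p ∣ 1 := by
      have := Nat.dvd_sub h7 h6
      rwa [Nat.sub_sub_self h0] at this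
    exact hp.one_lt.ne' (Nat.dvd_one.1 h8)
  have hcop : Nat.Coprime (Fintype.card F ^ 2 - 1) p :=
    ((Nat.Prime.coprime_iff_not_dvd hp).2 hnot).symm
  exact Nat.Coprime.coprime_dvd_left (Dvd.intro_left _ h5.symm) hcop

/-- module bound for `H ≅ SL(2, p ^ n)` acting faithfully on `V` of exponent `p`:
`|V : C_V(s)| ≥ p ^ n` for all nontrivial `p`-elements `s` of `H` -/
theorem sl2_bound {G : Type*} [Group G] [Finite G] (V H : Subgroup G) {p : ℕ} (hp : p.Prime)
    (hV : ∀ a ∈ V, a ^ p = 1) (hHV : H ≤ Subgroup.normalizer (V : Set G))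
    (hf : H ⊓ Subgroup.centralizer (V : Set G) = ⊥)
    {F : Type*} [Field F] [Fintype F] (n : ℕ) (hF : Fintype.card F = p ^ n)
    (e : ↥H ≃* SpecialLinearGroup (Fin 2) F)
    (S : Sylow p ↥H) (T : Subgroup G) (hT : T = ((S : Subgroup ↥H).map H.subtype)) :
    ∀ s ∈ T, s ≠ 1 → p ^ n ≤ (V ⊓ Subgroup.centralizer ({s} : Set G)).relIndex V := by
  classical
  have : Fact p.Prime := ⟨hp⟩
  intro s hsT hs1
  have hTH : T ≤ H := by
    rw [hT]
    exact Subgroup.map_subtype_le _
  have hne0 : (V ⊓ Subgroup.centralizer ({s} : Set G)).relIndex V ≠ 0 :=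
    (Subgroup.index_ne_zero_of_finite :
      ((V ⊓ Subgroup.centralizer ({s} : Set G)).subgroupOf V).index ≠ 0)
  rcases Nat.lt_or_ge n 2 with hn | hn
  · -- `n ≤ 1`: the index is a nontrivial power of `p`
    have hVp : IsPGroup p ↥V := fun a => ⟨1, by
      apply Subtype.ext
      simpa using hV a a.2⟩
    obtain ⟨m, hm⟩ := IsPGroup.iff_card.1 hVp
    obtain ⟨k, -, hk⟩ := (Nat.dvd_prime_pow hp).1
      (show (V ⊓ Subgroup.centralizer ({s} : Set G)).relIndex V ∣ p ^ m from
        hm ▸ Subgroup.relIndex_dvd_card _ V)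
    rw [hk]
    apply Nat.pow_le_pow_right hp.pos
    rcases Nat.eq_zero_or_pos k with h0 | h0
    · exfalso
      rw [h0, pow_zero, Subgroup.relIndex_eq_one] at hk
      have h1 : s ∈ H ⊓ Subgroup.centralizer (V : Set G) := by
        have h3 : s ∈ Subgroup.centralizer (V : Set G) := by
          rw [Subgroup.mem_centralizer_iff]
          intro v hv
          have h2 : v ∈ Subgroup.centralizer ({s} : Set G) := (hk hv).2
          rwa [Subgroup.mem_centralizer_singleton_iff] at h2
        exact ⟨hTH hsT, h3⟩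
      rw [hf, Subgroup.mem_bot] at h1
      exact hs1 h1
    · omega
  · -- `n ≥ 2`
    let π : ↥H →* ProjectiveSpecialLinearGroup (Fin 2) F :=
      (Cfsg.Agent.Lib.Helper43.PSL2Basic.pr (F := F)).comp e.toMonoidHom
    have hπ : Function.Surjective π := by
      intro x
      obtain ⟨z, hz⟩ := Cfsg.Agent.Lib.Helper43.PSL2Basic.pr_surjective (F := F) x
      exact ⟨e.symm z, by
        show Cfsg.Agent.Lib.Helper43.PSL2Basic.pr (e (e.symm z)) = x
        rw [MulEquiv.apply_symm_apply, hz]⟩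
    have hker : (Nat.card π.ker).Coprime p := by
      have h1 : Nat.card π.ker = Nat.card (Subgroup.center (SpecialLinearGroup (Fin 2) F)) := by
        apply Nat.card_congr
        refine ⟨fun z => ⟨e z.1, ?_⟩, fun z => ⟨e.symm z.1, ?_⟩, fun z => ?_, fun z => ?_⟩
        · have h2 : Cfsg.Agent.Lib.Helper43.PSL2Basic.pr (e z.1) = 1 := z.2
          exact (QuotientGroup.eq_one_iff _).1 h2
        · show Cfsg.Agent.Lib.Helper43.PSL2Basic.pr (e (e.symm z.1)) = 1
          rw [MulEquiv.apply_symm_apply]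
          exact (QuotientGroup.eq_one_iff _).2 z.2
        · exact Subtype.ext (e.symm_apply_apply z.1)
        · exact Subtype.ext (e.apply_symm_apply z.1)
      rw [h1]
      exact card_center_coprime hp hF
    have hkey := l2_key V H hp hV hHV hf n hn hF π hπ hker
    -- a subgroup of `T` of order divisible by `p`
    have hsub : p ∣ Nat.card (Subgroup.zpowers s) := by
      rw [hT] at hsT
      obtain ⟨s', hs'S, rfl⟩ := hsT
      obtain ⟨k, hk⟩ := S.isPGroup' ⟨s', hs'S⟩
      have h1 : s' ^ (p ^ k) = 1 := congrArg Subtype.val hk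
      have h2 : (H.subtype s') ^ (p ^ k) = 1 := by rw [← map_pow, h1, map_one]
      rw [Nat.card_zpowers]
      obtain ⟨j, -, hj⟩ := (Nat.dvd_prime_pow hp).1 (orderOf_dvd_of_pow_eq_one h2)
      rw [hj]
      apply dvd_pow_self
      rintro rfl
      rw [pow_zero, orderOf_eq_one_iff] at hj
      exact hs1 hj
    exact (Cfsg.Agent.Lib.Helper65.ModBound2.bounds V H hp hHV (p ^ n) hkey S T hT
      (Subgroup.zpowers s) (Subgroup.zpowers_le.2 hsT) hsub).2.2 s hsT hs1

end Cfsg.Agent.Lib.Helper65.L2Mod2
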