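import Mathlib
import Cfsg.Agent.Lib.Helper83.MclStmt

/-!
# S5075, piece SPCORE

A connected transvection system in which every centre has only one axis is the system of
symplectic transvections of a form on `cen Q`.
-/

set_option autoImplicit false

namespace Cfsg.Agent.Lib.Helper65.MclSPCORE

open Cfsg.Agent.Lib.Helper83.MclStmt

universe u v

section

variable {F : Type u} [Field F] {V : Type v} [AddCommGroup V] [Module F V]
  {Q : Module.Dual F V → V → Prop}

/-- the uniqueness-of-axis hypothesis -/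
def D1u (Q : Module.Dual F V → V → Prop) : Prop :=
  ∀ v φ₁ φ₂, v ≠ 0 → φ₁ ≠ 0 → Q φ₁ v → Q φ₂ v → ∃ c : F, φ₂ = c • φ₁

/-- non-trivial pairs of the system -/
def IsPair (Q : Module.Dual F V → V → Prop) (φ : Module.Dual F V) (v : V) : Prop :=
  Q φ v ∧ φ ≠ 0 ∧ v ≠ 0

theorem mem_cen_of_pair {φ : Module.Dual F V} {v : V} (h : IsPair Q φ v) : v ∈ cen Q :=
  Submodule.subset_span ⟨φ, h.2.1, h.2.2, h.1⟩

theorem mem_ax_iff {x : V} : x ∈ ax Q ↔ ∀ φ v, IsPair Q φ v → φ x = 0 := by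
  unfold ax IsPair
  simp only [Submodule.mem_iInf, LinearMap.mem_ker]
  constructor
  · intro h φ v hp
    exact h φ v ⟨hp.2.1, hp.2.2, hp.1⟩
  · intro h φ v hp
    exact h φ v ⟨hp.2.2, hp.1, hp.2.1⟩

theorem d1 (hS : Sys Q) (hD : D1u Q) {φ ψ : Module.Dual F V} {v w : V}
    (h1 : IsPair Q φ v) (h2 : IsPair Q ψ w) (h : φ w = 0) : ψ v = 0 := by
  by_contra hne
  have h3 : Q φ w := hS.rule_R' φ v ψ w h1.1 h2.1 h hne
  obtain ⟨c, hc⟩ := hD w ψ φ h2.2.2 h2.2.1 h2.1 h3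
  have h4 : φ v = 0 := hS.zero φ v h1.1
  rw [hc, LinearMap.smul_apply, smul_eq_mul] at h4
  rcases mul_eq_zero.1 h4 with h4 | h4
  · apply h1.2.1
    rw [hc, h4, zero_smul]
  · exact hne h4

theorem d1' (hS : Sys Q) (hD : D1u Q) {φ ψ : Module.Dual F V} {v w : V}
    (h1 : IsPair Q φ v) (h2 : IsPair Q ψ w) (h : φ w ≠ 0) : ψ v ≠ 0 :=
  fun h' => h (d1 hS hD h2 h1 h')

theorem hyp11 (hS : Sys Q) {φ ψ : Module.Dual F V} {v w : V} (h1 : Q φ v) (h2 : Q ψ w)
    (hφw : φ w ≠ 0) (hψv : ψ v ≠ 0) :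
    IsPair Q (φ + (-φ w / ψ v) • ψ) (v + w) := by
  have hn : ((-φ w / ψ v) • ψ) v = -φ w := by
    rw [LinearMap.smul_apply, smul_eq_mul, div_mul_cancel₀ _ hψv]
  have h3 := hS.rule_hyp φ v ((-φ w / ψ v) • ψ) w h1 (hS.smul_left _ _ _ h2) hφw hn 1 1
  rw [one_smul, one_smul, one_smul, one_smul] at h3
  refine ⟨h3, ?_, ?_⟩
  · intro h0
    have h4 : (φ + (-φ w / ψ v) • ψ) v = 0 := by rw [h0]; rfl
    rw [LinearMap.add_apply, hn, hS.zero φ v h1, zero_add, neg_eq_zero] at h4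
    exact hφw h4
  · intro h0
    have h4 : w = -v := by
      rw [eq_neg_iff_add_eq_zero, add_comm]; exact h0
    apply hφw
    rw [h4, map_neg, hS.zero φ v h1, neg_zero]

theorem c4 (hS : Sys Q) (hD : D1u Q) {φ ψ : Module.Dual F V} {y u : V}
    (h1 : IsPair Q φ y) (h2 : IsPair Q ψ u) :
    ∃ ζ z, IsPair Q ζ z ∧ φ z ≠ 0 ∧ ψ z ≠ 0 := by
  have hconn := hS.conn φ y ψ u h1.1 h1.2.1 h1.2.2 h2.1 h2.2.1 h2.2.2
  have key : ∀ b : Module.Dual F V × V,
      Relation.ReflTransGen (fun a b : Module.Dual F V × V =>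
        Q a.1 a.2 ∧ Q b.1 b.2 ∧ a.1 b.2 ≠ 0 ∧ b.1 a.2 ≠ 0) (φ, y) b →
      IsPair Q b.1 b.2 ∧ ∃ ζ z, IsPair Q ζ z ∧ φ z ≠ 0 ∧ b.1 z ≠ 0 := by
    intro b hb
    induction hb with
    | refl =>
      refine ⟨h1, ?_⟩
      obtain ⟨ψ', w', hq, hne1, hne2⟩ := hS.opp φ y h1.1 h1.2.1 h1.2.2
      refine ⟨ψ', w', ⟨hq, ?_, ?_⟩, hne1, hne1⟩
      · intro h0; apply hne2; rw [h0]; rfl
      · intro h0; apply hne1; rw [h0, map_zero]
    | tail hab hbc ih =>
      rename_i b c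
      obtain ⟨hb, ζ, z, hζ, hφz, hbz⟩ := ih
      obtain ⟨hqb, hqc, hbc1, hcb1⟩ := hbc
      have hc : IsPair Q c.1 c.2 := by
        refine ⟨hqc, ?_, ?_⟩
        · intro h0; apply hcb1; rw [h0]; rfl
        · intro h0; apply hbc1; rw [h0, map_zero]
      refine ⟨hc, ?_⟩
      by_cases hcz : c.1 z = 0
      swap
      · exact ⟨ζ, z, hζ, hφz, hcz⟩
      by_cases hφb : φ b.2 = 0
      swap
      · exact ⟨b.1, b.2, hb, hφb, hcb1⟩
      have hζb : ζ b.2 ≠ 0 := d1' hS hD hb hζ hbz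
      refine ⟨_, _, hyp11 hS hζ.1 hb.1 hζb hbz, ?_, ?_⟩
      · rw [map_add, hφb, add_zero]; exact hφz
      · rw [map_add, hcz, zero_add]; exact hcb1
  obtain ⟨_, ζ, z, hζ, h3, h4⟩ := key _ hconn
  exact ⟨ζ, z, hζ, h3, h4⟩

/-- the normalised relation "`ξ` is the axis of the centre `x`" relative to `(χ, u)` -/
def P (Q : Module.Dual F V → V → Prop) (χ : Module.Dual F V) (u : V) (x : V)
    (ξ : Module.Dual F V) : Prop :=
  Q ξ x ∧ χ x ≠ 0 ∧ ξ u = -χ x

variable {χ : Module.Dual F V} {u : V}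

theorem P_pair {x : V} {ξ : Module.Dual F V} (h : P Q χ u x ξ) : IsPair Q ξ x := by
  refine ⟨h.1, ?_, ?_⟩
  · intro h0
    have h3 := h.2.2
    rw [h0, LinearMap.zero_apply, eq_comm, neg_eq_zero] at h3
    exact h.2.1 h3
  · intro h0
    apply h.2.1
    rw [h0, map_zero]

theorem P_of_pair (hS : Sys Q) (hD : D1u Q) (hχ : IsPair Q χ u) {φ : Module.Dual F V} {x : V}
    (h : IsPair Q φ x) (hx : χ x ≠ 0) : ∃ ξ, P Q χ u x ξ := by
  have hφu : φ u ≠ 0 := d1' hS hD hχ h hx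
  refine ⟨(-χ x / φ u) • φ, hS.smul_left _ _ _ h.1, hx, ?_⟩
  rw [LinearMap.smul_apply, smul_eq_mul, div_mul_cancel₀ _ hφu]

theorem P_N (hS : Sys Q) (hD : D1u Q) (hχ : IsPair Q χ u) {x x' : V} {ξ ξ' : Module.Dual F V}
    (h : P Q χ u x ξ) (h' : P Q χ u x' ξ') : ξ' x = -ξ x' := by
  by_cases h0 : ξ x' = 0
  · rw [h0, neg_zero]
    exact d1 hS hD (P_pair h) (P_pair h') h0
  have h0' : ξ' x ≠ 0 := d1' hS hD (P_pair h) (P_pair h') h0
  have hn : ((-ξ x' / ξ' x) • ξ') x = -ξ x' := by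
    rw [LinearMap.smul_apply, smul_eq_mul, div_mul_cancel₀ _ h0']
  have h3 := hS.rule_hyp ξ x ((-ξ x' / ξ' x) • ξ') x' h.1 (hS.smul_left _ _ _ h'.1) h0 hn
    (χ x') (-χ x)
  -- the new pair has `χ y = 0`, hence `η u = 0`
  have hy : χ (χ x' • x + -χ x • x') = 0 := by
    simp only [map_add, map_smul, smul_eq_mul]; ring
  have hηu : (χ x' • ξ + -χ x • (-ξ x' / ξ' x) • ξ') u = 0 := by
    by_cases hη : (χ x' • ξ + -χ x • (-ξ x' / ξ' x) • ξ') = 0
    · rw [hη]; rfl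
    refine d1 hS hD hχ ⟨h3, hη, ?_⟩ hy
    intro hy0
    have h4 : ξ (χ x' • x + -χ x • x') = 0 := by rw [hy0, map_zero]
    simp only [map_add, map_smul, smul_eq_mul, hS.zero ξ x h.1, mul_zero, zero_add] at h4
    rcases mul_eq_zero.1 h4 with h5 | h5
    · exact h.2.1 (neg_eq_zero.1 h5)
    · exact h0 h5
  simp only [LinearMap.add_apply, LinearMap.smul_apply, smul_eq_mul, h.2.2, h'.2.2] at hηu
  have h5 : χ x * χ x' * (-ξ x' / ξ' x - 1) = 0 := by
    rw [← hηu]; ring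
  have h6 : -ξ x' / ξ' x - 1 = 0 := by
    rcases mul_eq_zero.1 h5 with h7 | h7
    · rcases mul_eq_zero.1 h7 with h8 | h8
      · exact absurd h8 h.2.1
      · exact absurd h8 h'.2.1
    · exact h7
  have h7 : -ξ x' / ξ' x = 1 := sub_eq_zero.1 h6
  rw [div_eq_one_iff_eq h0'] at h7
  exact h7.symm

theorem P_add (hS : Sys Q) (hD : D1u Q) (hχ : IsPair Q χ u) {x x' : V} {ξ ξ' : Module.Dual F V}
    (h : P Q χ u x ξ) (h' : P Q χ u x' ξ') (hne : χ (x + x') ≠ 0) :
    P Q χ u (x + x') (ξ + ξ') := by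
  refine ⟨?_, hne, ?_⟩
  swap
  · rw [LinearMap.add_apply, h.2.2, h'.2.2, map_add]; ring
  have hχu : χ u = 0 := hS.zero χ u hχ.1
  obtain ⟨a, ha⟩ : ∃ a : F, ξ x' + a * χ x' ≠ 0 := by
    by_cases h0 : ξ x' = 0
    · exact ⟨1, by rw [h0, zero_add, one_mul]; exact h'.2.1⟩
    · exact ⟨0, by rw [zero_mul, add_zero]; exact h0⟩
  -- step 1
  have s1 := hS.rule_hyp ξ x χ u h.1 hχ.1 (by rw [h.2.2]; exact neg_ne_zero.2 h.2.1)
    (by rw [h.2.2, neg_neg]) 1 a
  rw [one_smul, one_smul] at s1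
  -- step 2
  have hN := P_N hS hD hχ h h'
  have s2 := hS.rule_hyp (ξ + a • χ) (x + a • u) ξ' x' s1 h'.1
    (by simpa only [LinearMap.add_apply, LinearMap.smul_apply, smul_eq_mul] using ha)
    (by simp only [map_add, map_smul, smul_eq_mul, LinearMap.add_apply, LinearMap.smul_apply,
          hN, h'.2.2]; ring) 1 1
  rw [one_smul, one_smul, one_smul, one_smul] at s2
  -- step 3
  have s3 := hS.rule_hyp (ξ + a • χ + ξ') (x + a • u + x') χ u s2 hχ.1
    (by
      simp only [LinearMap.add_apply, LinearMap.smul_apply, smul_eq_mul, h.2.2, h'.2.2, hχu,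
        mul_zero, add_zero]
      intro h0
      apply hne
      rw [map_add]
      have : χ x + χ x' = -(-χ x + -χ x') := by ring
      rw [this, h0, neg_zero])
    (by
      simp only [map_add, map_smul, smul_eq_mul, LinearMap.add_apply, LinearMap.smul_apply,
        h.2.2, h'.2.2, hχu, mul_zero, add_zero]; ring) 1 (-a)
  have e1 : (1 : F) • (ξ + a • χ + ξ') + -a • χ = ξ + ξ' := by
    module
  have e2 : (1 : F) • (x + a • u + x') + -a • u = x + x' := by
    module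
  rw [e1, e2] at s3
  exact s3

theorem P_smul (hS : Sys Q) {x : V} {ξ : Module.Dual F V} (c : F) (hc : c ≠ 0)
    (h : P Q χ u x ξ) : P Q χ u (c • x) (c • ξ) := by
  refine ⟨hS.smul_left _ _ _ (hS.smul_right _ _ _ h.1), ?_, ?_⟩
  · rw [map_smul, smul_eq_mul]; exact mul_ne_zero hc h.2.1
  · rw [LinearMap.smul_apply, h.2.2, map_smul, smul_eq_mul, smul_eq_mul, mul_neg]

theorem P_uniq (hD : D1u Q) {x : V} {ξ ξ' : Module.Dual F V}
    (h : P Q χ u x ξ) (h' : P Q χ u x ξ') : ξ = ξ' := by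
  have hp := P_pair h
  obtain ⟨c, hc⟩ := hD x ξ ξ' hp.2.2 hp.2.1 h.1 h'.1
  have h3 := h'.2.2
  rw [hc, LinearMap.smul_apply, h.2.2, smul_eq_mul] at h3
  have h4 : (c - 1) * χ x = 0 := by
    have : (c - 1) * χ x = -(c * -χ x) - χ x := by ring
    rw [this, h3]; ring
  rcases mul_eq_zero.1 h4 with h5 | h5
  · rw [hc, sub_eq_zero.1 h5, one_smul]
  · exact absurd h5 h.2.1

theorem core [FiniteDimensional F V] (hS : Sys Q) (h2 : (2 : F) ≠ 0) (hD : D1u Q)
    (hflag : ∀ φ v φ' v', Q φ v → Q φ' v' → (∀ x ∈ cen Q, φ x • v - φ' x • v' ∈ ax Q) →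
      ∀ x, φ x • v = φ' x • v')
    (hχ : IsPair Q χ u) (β : V →ₗ[F] Module.Dual F V)
    (hβ1 : ∀ x ξ, P Q χ u x ξ → β x = ξ)
    (hβ2 : ∀ x ∈ Submodule.span F {x | ∃ ξ, P Q χ u x ξ}, χ x ≠ 0 → P Q χ u x (β x)) :
    IsCompl (cen Q) (ax Q) ∧
    (∀ x ∈ cen Q, ∀ y ∈ ax Q, β x y = 0) ∧ (∀ x ∈ cen Q, β x x = 0) ∧
    (∀ x ∈ cen Q, x ≠ 0 → ∃ y ∈ cen Q, β x y ≠ 0) ∧
    ∀ φ v, Q φ v ↔ (φ = 0 ∨ v = 0 ∨ (v ∈ cen Q ∧ ∃ c : F, φ = c • β v)) := by
  have hO : ∀ x, (∃ ξ, P Q χ u x ξ) → P Q χ u x (β x) := by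
    rintro x ⟨ξ, hξ⟩
    rw [hβ1 x ξ hξ]; exact hξ
  have hO' : ∀ φ x, IsPair Q φ x → χ x ≠ 0 → P Q χ u x (β x) :=
    fun φ x hp hx => hO x (P_of_pair hS hD hχ hp hx)
  -- (W)
  have hW : cen Q = Submodule.span F {x | ∃ ξ, P Q χ u x ξ} := by
    apply le_antisymm
    · unfold cen
      rw [Submodule.span_le]
      rintro y ⟨φ, hφ, hy, hq⟩
      have hp : IsPair Q φ y := ⟨hq, hφ, hy⟩
      by_cases hχy : χ y = 0
      · obtain ⟨ζ, z, hζ, hφz, hχz⟩ := c4 hS hD hp hχ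
        have hζy : ζ y ≠ 0 := d1' hS hD hp hζ hφz
        have hp2 := hyp11 hS hp.1 hζ.1 hφz hζy
        have hχyz : χ (y + z) ≠ 0 := by rw [map_add, hχy, zero_add]; exact hχz
        have m1 : y + z ∈ Submodule.span F {x | ∃ ξ, P Q χ u x ξ} :=
          Submodule.subset_span (P_of_pair hS hD hχ hp2 hχyz)
        have m2 : z ∈ Submodule.span F {x | ∃ ξ, P Q χ u x ξ} :=
          Submodule.subset_span (P_of_pair hS hD hχ hζ hχz)
        have m3 := Submodule.sub_mem _ m1 m2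
        rw [add_sub_cancel_right] at m3
        exact m3
      · exact Submodule.subset_span (P_of_pair hS hD hχ hp hχy)
    · rw [Submodule.span_le]
      rintro x ⟨ξ, hξ⟩
      exact mem_cen_of_pair (P_pair hξ)
  -- (B), the claim
  have hBc : ∀ x, x ∉ ax Q → ∃ z, P Q χ u z (β z) ∧ β z x ≠ 0 := by
    intro x hx
    by_contra hcon0
    have hcon : ∀ z, P Q χ u z (β z) → β z x = 0 := by
      intro z hz
      by_contra h
      exact hcon0 ⟨z, hz, h⟩
    apply hx
    rw [mem_ax_iff]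
    intro ψ w hp
    by_cases hχw : χ w = 0
    · obtain ⟨ζ, z, hζ, hψz, hχz⟩ := c4 hS hD hp hχ
      have hPz := hO' ζ z hζ hχz
      have hβzw : β z w ≠ 0 := d1' hS hD hp (P_pair hPz) hψz
      have hp2 := hyp11 hS hPz.1 hp.1 hβzw hψz
      have hψu : ψ u = 0 := d1 hS hD hχ hp hχw
      have hP2 : P Q χ u (z + w) (β z + (-β z w / ψ z) • ψ) := by
        refine ⟨hp2.1, ?_, ?_⟩
        · rw [map_add, hχw, add_zero]; exact hχz
        · rw [LinearMap.add_apply, LinearMap.smul_apply, hψu, smul_zero, add_zero, hPz.2.2,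
            map_add, hχw, add_zero]
      have e1 := hβ1 _ _ hP2
      have e2 := hcon (z + w) (by rw [e1]; exact hP2)
      have e3 := hcon z hPz
      rw [e1, LinearMap.add_apply, e3, zero_add, LinearMap.smul_apply, smul_eq_mul] at e2
      rcases mul_eq_zero.1 e2 with h | h
      · rw [div_eq_zero_iff] at h
        rcases h with h | h
        · exact absurd (neg_eq_zero.1 h) hβzw
        · exact absurd h hψz
      · exact h
    · have hPw := hO' ψ w hp hχw
      obtain ⟨c, hc⟩ := hD w (β w) ψ hp.2.2 (P_pair hPw).2.1 hPw.1 hp.1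
      rw [hc, LinearMap.smul_apply, hcon w hPw, smul_zero]
  -- (B)
  have hB : ∀ x ∈ cen Q, x ∉ ax Q → Q (β x) x ∧ β x ≠ 0 := by
    intro x hxc hxa
    by_cases hχx : χ x = 0
    · obtain ⟨z, hPz, hzx⟩ := hBc x hxa
      have hzc : z ∈ cen Q := mem_cen_of_pair (P_pair hPz)
      have hxz : x - z ∈ Submodule.span F {x | ∃ ξ, P Q χ u x ξ} := by
        rw [← hW]; exact Submodule.sub_mem _ hxc hzc
      have hχxz : χ (x - z) ≠ 0 := by
        rw [map_sub, hχx, zero_sub]; exact neg_ne_zero.2 hPz.2.1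
      have hPxz := hβ2 _ hxz hχxz
      have hzz : β z z = 0 := hS.zero _ _ hPz.1
      have h3 : β z (x - z) ≠ 0 := by rw [map_sub, hzz, sub_zero]; exact hzx
      have hN := P_N hS hD hχ hPz hPxz
      have h4 := hS.rule_hyp (β z) z (β (x - z)) (x - z) hPz.1 hPxz.1 h3 hN 1 1
      have e1 : (1 : F) • β z + (1 : F) • β (x - z) = β x := by
        rw [one_smul, one_smul, ← map_add]; congr 1; abel
      have e2 : (1 : F) • z + (1 : F) • (x - z) = x := by rw [one_smul, one_smul]; abel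
      rw [e1, e2] at h4
      refine ⟨h4, ?_⟩
      intro h0
      have h5 : β (x - z) z = β x z := by
        rw [map_sub, LinearMap.sub_apply, hzz, sub_zero]
      rw [h5, h0, LinearMap.zero_apply, eq_comm, neg_eq_zero] at hN
      exact h3 hN
    · have hx' : x ∈ Submodule.span F {x | ∃ ξ, P Q χ u x ξ} := by rw [← hW]; exact hxc
      have hPx := hβ2 x hx' hχx
      exact ⟨hPx.1, (P_pair hPx).2.1⟩
  -- (Skew)
  have hSk1 : ∀ x, (∃ ξ, P Q χ u x ξ) → ∀ y ∈ cen Q, β x y = -β y x := by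
    intro x hx y hy
    rw [hW] at hy
    induction hy using Submodule.span_induction with
    | mem y hy => exact P_N hS hD hχ (hO y hy) (hO x hx)
    | zero => simp
    | add y y' _ _ ih ih' => rw [map_add, ih, ih', map_add, LinearMap.add_apply]; ring
    | smul c y _ ih => rw [map_smul, ih, map_smul, LinearMap.smul_apply, smul_eq_mul,
        smul_eq_mul, mul_neg]
  have hSk : ∀ x ∈ cen Q, ∀ y ∈ cen Q, β x y = -β y x := by
    intro x hx y hy
    have hx' := hx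
    rw [hW] at hx'
    induction hx' using Submodule.span_induction with
    | mem x hx1 => exact hSk1 x hx1 y hy
    | zero => simp
    | add x x' hx1 hx1' ih ih' =>
      rw [map_add, LinearMap.add_apply, ih (by rw [hW]; exact hx1), ih' (by rw [hW]; exact hx1'),
        map_add]; ring
    | smul c x hx1 ih =>
      rw [map_smul, LinearMap.smul_apply, ih (by rw [hW]; exact hx1), map_smul, smul_eq_mul,
        smul_eq_mul, mul_neg]
  -- (Ax)
  have hAx : ∀ x ∈ cen Q, ∀ y ∈ ax Q, β x y = 0 := by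
    intro x hx y hy
    rw [hW] at hx
    induction hx using Submodule.span_induction with
    | mem x hx => exact (mem_ax_iff.1 hy) _ _ (P_pair (hO x hx))
    | zero => simp
    | add x x' _ _ ih ih' => rw [map_add, LinearMap.add_apply, ih, ih', add_zero]
    | smul c x _ ih => rw [map_smul, LinearMap.smul_apply, ih, smul_zero]
  -- (Split)
  have hSplit : ∀ r ∈ cen Q, r ∈ ax Q → r = 0 := by
    intro r hrc hra
    by_contra hr0
    obtain ⟨ψ, w, hq, hχw, hψu⟩ := hS.opp χ u hχ.1 hχ.2.1 hχ.2.2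
    have hpw : IsPair Q ψ w :=
      ⟨hq, fun h0 => hψu (by rw [h0]; rfl), fun h0 => hχw (by rw [h0, map_zero])⟩
    have hPw := hO' ψ w hpw hχw
    have hχr : χ r = 0 := (mem_ax_iff.1 hra) χ u hχ
    have hwc : w ∈ cen Q := mem_cen_of_pair hpw
    have hwr : w - r ∈ Submodule.span F {x | ∃ ξ, P Q χ u x ξ} := by
      rw [← hW]; exact Submodule.sub_mem _ hwc hrc
    have hPwr := hβ2 _ hwr (by rw [map_sub, hχr, sub_zero]; exact hχw)
    have hμ : ∀ x ∈ cen Q, β r x = 0 := by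
      intro x hx
      rw [hSk r hrc x hx, hAx x hx r hra, neg_zero]
    have h3 := hflag (β w) w (β (w - r)) (w - r) hPw.1 hPwr.1 (by
      intro x hx
      have e : β w x • w - β (w - r) x • (w - r) = β w x • r := by
        rw [map_sub, LinearMap.sub_apply, hμ x hx, sub_zero, smul_sub]; abel
      rw [e]
      exact Submodule.smul_mem _ _ hra)
    obtain ⟨ψ', w', hq', hne1, hne2⟩ := hS.opp (β w) w hPw.1 (P_pair hPw).2.1 (P_pair hPw).2.2
    have hw'c : w' ∈ cen Q :=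
      mem_cen_of_pair ⟨hq', fun h0 => hne2 (by rw [h0]; rfl), fun h0 => hne1 (by rw [h0, map_zero])⟩
    have h4 := h3 w'
    rw [map_sub, LinearMap.sub_apply, hμ w' hw'c, sub_zero, smul_sub] at h4
    have h5 : β w w' • r = 0 := by
      have h6 := sub_eq_zero.2 h4
      rw [sub_sub_cancel] at h6
      exact h6
    rcases smul_eq_zero.1 h5 with h6 | h6
    · exact hne1 h6
    · exact hr0 h6
  have hB' : ∀ x ∈ cen Q, x ≠ 0 → Q (β x) x ∧ β x ≠ 0 :=
    fun x hx hx0 => hB x hx (fun hxa => hx0 (hSplit x hx hxa))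
  have hnd : ∀ x ∈ cen Q, x ≠ 0 → ∃ y ∈ cen Q, β x y ≠ 0 := by
    intro x hx hx0
    obtain ⟨hq, hne⟩ := hB' x hx hx0
    obtain ⟨ψ, w, hq', hne1, hne2⟩ := hS.opp (β x) x hq hne hx0
    exact ⟨w, mem_cen_of_pair ⟨hq', fun h0 => hne2 (by rw [h0]; rfl),
      fun h0 => hne1 (by rw [h0, map_zero])⟩, hne1⟩
  refine ⟨?_, hAx, ?_, hnd, ?_⟩
  · constructor
    · exact Submodule.disjoint_def.2 (fun x hx hx' => hSplit x hx hx')
    · rw [codisjoint_iff, eq_top_iff]
      intro y _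
      let T : ↥(cen Q) →ₗ[F] Module.Dual F ↥(cen Q) :=
        (cen Q).subtype.dualMap ∘ₗ β.flip ∘ₗ (cen Q).subtype
      have hT : ∀ (c x : ↥(cen Q)), T c x = β (x : V) (c : V) := fun c x => rfl
      have hinj : Function.Injective T := by
        rw [← LinearMap.ker_eq_bot, LinearMap.ker_eq_bot']
        intro c hc
        by_contra hc0
        have hc0' : (c : V) ≠ 0 := fun h => hc0 (Subtype.ext h)
        obtain ⟨y', hy', hne⟩ := hnd (c : V) c.2 hc0'
        apply hne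
        rw [hSk (c : V) c.2 y' hy']
        have h3 : T c ⟨y', hy'⟩ = 0 := by rw [hc]; rfl
        rw [hT] at h3
        rw [h3, neg_zero]
      have hsurj : Function.Surjective T :=
        (LinearMap.injective_iff_surjective_of_finrank_eq_finrank
          (Subspace.dual_finrank_eq).symm).1 hinj
      obtain ⟨c, hc⟩ := hsurj ((cen Q).subtype.dualMap (β.flip y))
      have hyc : y - (c : V) ∈ ax Q := by
        rw [mem_ax_iff]
        intro ψ w hp
        have hwc := mem_cen_of_pair hp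
        obtain ⟨hq', hne⟩ := hB' w hwc hp.2.2
        obtain ⟨k, hk⟩ := hD w (β w) ψ hp.2.2 hne hq' hp.1
        have h3 : T c ⟨w, hwc⟩ = β w y := by rw [hc]; rfl
        rw [hT] at h3
        rw [hk, LinearMap.smul_apply, map_sub, h3, sub_self, smul_zero]
      have e : y = (c : V) + (y - (c : V)) := by abel
      rw [e]
      exact Submodule.add_mem_sup c.2 hyc
  · intro x hx
    have h3 := hSk x hx x hx
    have h4 : (2 : F) * β x x = 0 := by
      rw [two_mul]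
      nth_rewrite 1 [h3]
      exact neg_add_cancel _
    rcases mul_eq_zero.1 h4 with h | h
    · exact absurd h h2
    · exact h
  · intro φ v
    constructor
    · intro hq
      by_cases hφ : φ = 0
      · exact Or.inl hφ
      by_cases hv : v = 0
      · exact Or.inr (Or.inl hv)
      have hvc : v ∈ cen Q := mem_cen_of_pair ⟨hq, hφ, hv⟩
      obtain ⟨hq', hne⟩ := hB' v hvc hv
      exact Or.inr (Or.inr ⟨hvc, hD v (β v) φ hv hne hq' hq⟩)
    · rintro (h | h | ⟨hvc, c, hc⟩)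
      · rw [h]; exact hS.zero_left v
      · rw [h]; exact hS.zero_right φ
      · by_cases hv : v = 0
        · rw [hv]; exact hS.zero_right φ
        · rw [hc]; exact hS.smul_left _ _ _ (hB' v hvc hv).1

end

theorem main : SPCORE.{u, v} := by
  intro hLIN F _ V _ _ _ Q hS h2 hD hflag
  by_cases hpair : ∃ χ u, IsPair Q χ u
  swap
  · have hcen : cen Q = ⊥ := by
      unfold cen
      rw [Submodule.span_eq_bot]
      rintro x ⟨φ, hφ, hx, hq⟩
      exact absurd ⟨φ, x, hq, hφ, hx⟩ hpair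
    have hax : ax Q = ⊤ := by
      rw [eq_top_iff]
      intro x _
      rw [mem_ax_iff]
      intro φ v hp
      exact absurd ⟨φ, v, hp⟩ hpair
    refine ⟨0, ?_, ?_, ?_, ?_, ?_⟩
    · rw [hcen, hax]; exact isCompl_bot_top
    · intro x _ y _; rfl
    · intro x _; rfl
    · intro x hx hx0
      rw [hcen] at hx
      exact absurd ((Submodule.mem_bot F).1 hx) hx0
    · intro φ v
      constructor
      · intro hq
        by_cases hφ : φ = 0
        · exact Or.inl hφ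
        by_cases hv : v = 0
        · exact Or.inr (Or.inl hv)
        exact absurd ⟨φ, v, hq, hφ, hv⟩ hpair
      · rintro (h | h | ⟨h, _⟩)
        · rw [h]; exact hS.zero_left v
        · rw [h]; exact hS.zero_right φ
        · rw [hcen] at h
          rw [(Submodule.mem_bot F).1 h]; exact hS.zero_right φ
  · obtain ⟨χ, u, hχ⟩ := hpair
    obtain ⟨β, hβ1, hβ2⟩ := hLIN F V (Module.Dual F V) χ (P Q χ u) h2
      (fun x ξ h => h.2.1)
      (fun x ξ x' ξ' h h' hne => P_add hS hD hχ h h' hne)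
      (fun x ξ c hc h => P_smul hS c hc h)
      (fun x ξ ξ' h h' => P_uniq hD h h')
    exact ⟨β, core hS h2 hD hflag hχ β hβ1 hβ2⟩

end Cfsg.Agent.Lib.Helper65.MclSPCORE
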