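import Mathlib
import Cfsg.Agent.Lib.Helper88.ORStmt
import Cfsg.Agent.H85.PPowNormal
import Cfsg.Agent.Lib.Helper87.FSBasic
import Cfsg.Agent.Lib.Helper87.FSHyp

/-! S5202, piece AUTP: `F''` saturated of `p`-power index in `F` over `S'' ≥ T`; if `Γ` contains
the `p'`-elements of `Aut_F(T)` and the conjugations by the elements of `S''`, then
`Aut_{F''}(T) ≤ Γ`. -/

set_option autoImplicit false

namespace Cfsg.Agent.Lib.Helper65.ORAUTP

open Cfsg Cfsg.FusionSystem Cfsg.Agent.Lib.Helper88.ORStmt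

universe u

theorem main : AutPStep.{u} := by
  intro Ω _ S _ p _ hS F hF T S'' F'' Γ hT hTS'' hF''sat hF''pp hΓp' hΓconj
  have hF''F : F''.IsSubsystemOf F := hF''pp.1
  have hS''S : S'' ≤ S :=
    (F.le_of_mem (hF''F S'' (Cfsg.Agent.Lib.Helper87.FSBasic.subtype_mem F'' le_rfl))).1
  have hfin : Finite S'' := Finite.of_injective (Subgroup.inclusion hS''S)
    (Subgroup.inclusion_injective hS''S)
  have hT'' : F''.StronglyClosed T :=
    ⟨hTS'', fun R hR φ hφ x => hT.2 R hR φ (hF''F R hφ) x⟩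
  have hfa : F''.IsFullyAutomized p T :=
    (Cfsg.Agent.H85.far_of_stronglyClosed F'' hF''sat hT'').1
  -- `Aut_{F''}(T) ≤ Aut_F(T)`
  have hmono : F''.autGroup T ≤ F.autGroup T := by
    intro a ha
    rw [Cfsg.Agent.Lib.Helper87.FSBasic.mem_autGroup_iff F'' hTS''] at ha
    rw [Cfsg.Agent.Lib.Helper87.FSBasic.mem_autGroup_iff F hT.1]
    exact hF''F T ha
  intro α hα
  obtain ⟨n, hn, r, hr, hαnr⟩ := Cfsg.Agent.Lib.Helper87.FSHyp.autGroup_decomp F'' hfa α hα
  rw [hαnr]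
  refine Γ.mul_mem ?_ ?_
  · -- `n ∈ O^p(Aut_{F''}(T))`
    have hle : pResidual p (F''.autGroup T) ≤ Γ.comap (F''.autGroup T).subtype := by
      unfold pResidual
      rw [Subgroup.closure_le]
      intro a ha
      have ha' : Nat.Coprime (orderOf a) p := ha
      show (a : MulAut T) ∈ Γ
      refine hΓp' (a : MulAut T) (hmono a.2) ?_
      rw [Subgroup.orderOf_coe]
      exact ha'
    exact hle hn
  · obtain ⟨g, hg, hgr⟩ := (Cfsg.Agent.Lib.Helper87.FSBasic.mem_autInducedBy_iff r).1 hr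
    obtain ⟨g', hg'Γ, hg'⟩ := hΓconj g hg
    have e : r = g' := by
      ext t
      rw [hgr t, hg' t]
    rw [e]
    exact hg'Γ

end Cfsg.Agent.Lib.Helper65.ORAUTP
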