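import Mathlib
import Cfsg.Agent.Lib.Helper88.ORStmt
import Cfsg.Agent.H85.Invariant2
import Cfsg.Agent.Lib.Helper87.FSBasic

/-! S5202, piece INVE: a normal subsystem `E` of `F` is invariant in every saturated `F''`
with `E ≤ F'' ≤ F`. -/

set_option autoImplicit false

namespace Cfsg.Agent.Lib.Helper65.ORINVE

open Cfsg Cfsg.FusionSystem Cfsg.Agent.Lib.Helper88.ORStmt

universe u

theorem main : InvSub.{u} := by
  intro Ω _ S _ p _ hS F hF T E S'' F'' hEn hF''sat hF''F hEF''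
  have hEinv : E.IsInvariantIn F := hEn.1.2.2
  have hEF : E.IsSubsystemOf F := hEinv.1
  have hT : F.StronglyClosed T := hEinv.2.1
  have hSI : Cfsg.Agent.H85.StrongInv E F :=
    (Cfsg.Agent.H85.invariant_iff_strongInv p hS F hF E hEF hT).mp hEinv
  have hS''S : S'' ≤ S :=
    (F.le_of_mem (hF''F S'' (Cfsg.Agent.Lib.Helper87.FSBasic.subtype_mem F'' le_rfl))).1
  have hTS'' : T ≤ S'' :=
    (F''.le_of_mem (hEF'' T (Cfsg.Agent.Lib.Helper87.FSBasic.subtype_mem E le_rfl))).1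
  have hfin : Finite S'' := Finite.of_injective (Subgroup.inclusion hS''S)
    (Subgroup.inclusion_injective hS''S)
  have hS''p : IsPGroup p S'' := hS.to_le hS''S
  have hT'' : F''.StronglyClosed T :=
    ⟨hTS'', fun R hR φ hφ x => hT.2 R hR φ (hF''F R hφ) x⟩
  have hSI'' : Cfsg.Agent.H85.StrongInv E F'' :=
    fun P Q hPQ hQT φ hφ hφQ ψ hψ => hSI P Q hPQ hQT φ hφ hφQ ψ (hF''F Q hψ)
  exact (Cfsg.Agent.H85.invariant_iff_strongInv p hS''p F'' hF''sat E hEF'' hT'').mpr hSI''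

end Cfsg.Agent.Lib.Helper65.ORINVE
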