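import Mathlib
import Cfsg.Agent.Lib.Helper88.ORStmt

/-! S5202, piece RLSUB: a residual limit of `F` is a subsystem of `F`. -/

set_option autoImplicit false

namespace Cfsg.Agent.Lib.Helper65.ORRLSUB

open Cfsg Cfsg.FusionSystem Cfsg.Agent.Lib.Helper88.ORStmt

universe u

theorem main : RLSub.{u} := by
  intro Ω _ p U S L F h
  induction h with
  | stable F p h1 h2 => exact fun P => subset_rfl
  | step F p D D' hD hD' _ ih => exact fun P φ hφ => hD.2.1 P (hD'.2.1.1 P (ih P hφ))

end Cfsg.Agent.Lib.Helper65.ORRLSUB
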