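import Mathlib
import Cfsg.Agent.Lib.Helper75.OTStmt
import Cfsg.Agent.Lib.Helper75.GrpAlg
import Cfsg.Agent.Lib.Helper75.Spectral

/-!
# S4889 piece BRI: injectivity of the Brauer map followed by multiplication with the local
block idempotent

From BRM (multiplicativity of the truncation), BRK (central elements of the reduced block
vanishing on `C`) and BRO (the truncated block idempotent is congruent to the orbit sum).
-/

set_option autoImplicit false

namespace Cfsg.Agent.Lib.Helper65.OtBRI

open Cfsg Module Cfsg.Agent.Lib.Helper77.LocalRing Cfsg.Agent.Lib.Helper77.CentralChar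
  Cfsg.Agent.Lib.Helper77.ClassSum Cfsg.Agent.Lib.Helper77.BlockIdem
  Cfsg.Agent.Lib.Helper77.BPBasic Cfsg.Agent.Lib.Helper77.BPMax
  Cfsg.Agent.Lib.Helper75.TwoChar Cfsg.Agent.Lib.Helper75.BlockAlg
  Cfsg.Agent.Lib.Helper75.Decomp Cfsg.Agent.Lib.Helper75.OTStmt
  Cfsg.Agent.Lib.Helper75.GrpAlg Cfsg.Agent.Lib.Helper77.BPConj

universe u

/-- Conjugation on the group algebra as a product with group elements. -/
theorem conjA_eq_single {G : Type u} [Group G] [Finite G] (x : G) (z : MonoidAlgebra ℂ G) :
    conjA x z = MonoidAlgebra.single x (1 : ℂ) * z * MonoidAlgebra.single x⁻¹ (1 : ℂ) := by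
  apply MonoidAlgebra.ext
  ext g
  rw [coeff_conjA, MonoidAlgebra.coeff_mul_single_apply, MonoidAlgebra.coeff_single_mul_apply,
    one_mul, mul_one, inv_inv, mul_assoc]

theorem main (h1 : BRM.{u}) (h2 : BRK.{u}) (h3 : BRO.{u}) : BRI.{u} := by
  intro G _ _ p _ M hM hMp F _ q hq0 hqs B D c hmax hCV ê ε' hê hε' w v hwc hew hT hv
  classical
  refine h2 G M hMp F q hq0 B ê hê (Subgroup.centralizer (D : Set G)) hCV w hwc hew ?_
  intro g hg
  rw [← hT.1 g hg]
  suffices hv0 : v = 0 by rw [hv0]; rfl
  have : CharP F p := Cfsg.Agent.Lib.Helper75.Spectral.charP_resField hM hMp q hq0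
  have hD : IsPGroup p D := hmax.1.1.1
  have hB : IsPBlock M B := hmax.1.2.1
  have hc : IsPBlock M c := hmax.1.1.2
  have hTint : trunc (Subgroup.centralizer (D : Set G)) (blockIdem B) ∈ intSubring M hMp :=
    trunc_mem_intSubring hMp _ (blockIdem_mem_intSubring hMp B hB)
  have hOint : orbitSum D c ∈ intSubring M hMp := (orbitSum_mem hMp hc).2.2
  -- Step 1: the reductions of the truncated idempotent and of the orbit sum agree
  have htbob : MonoidAlgebra.mapRingHom G q (lift hMp _ hTint)
      = MonoidAlgebra.mapRingHom G q (lift hMp _ hOint) := by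
    apply MonoidAlgebra.ext
    ext g
    rw [MonoidAlgebra.coeff_mapRingHom, MonoidAlgebra.coeff_mapRingHom, ← sub_eq_zero,
      ← map_sub, hq0, AddSubgroupClass.coe_sub, coeff_lift, coeff_lift]
    exact h3 G p M hM B D c hmax g
  -- Step 2: `v = v * tb`
  have hvtb : v = v * MonoidAlgebra.mapRingHom G q (lift hMp _ hTint) := by
    refine h1 G p F D hD w (MonoidAlgebra.mapRingHom G q ê) v _ v ?_ ?_ hT ?_ ?_
    · intro u _
      exact (hwc _).symm
    · intro u _
      have hcomm : MonoidAlgebra.single u (1 : localSubring M hMp) * ê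
          = ê * MonoidAlgebra.single u 1 := by
        apply incl_injective hMp
        rw [map_mul, map_mul, incl_single_one, hê]
        have hcen := blockIdem_mem_center B
        rw [Subalgebra.mem_center_iff] at hcen
        exact hcen _
      have h' := congrArg (MonoidAlgebra.mapRingHom G q) hcomm
      rw [map_mul, map_mul, mapRingHom_single_one] at h'
      exact h'
    · constructor
      · intro g hg
        rw [MonoidAlgebra.coeff_mapRingHom, MonoidAlgebra.coeff_mapRingHom]
        congr 1
        apply Subtype.ext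
        rw [coeff_lift, coeff_trunc_of_mem _ _ hg, ← hê, coeff_incl]
      · intro g hg
        rw [MonoidAlgebra.coeff_mapRingHom]
        have h0 : (lift hMp _ hTint).coeff g = 0 := by
          apply Subtype.ext
          rw [coeff_lift, coeff_trunc_of_not_mem _ _ hg]
          rfl
        rw [h0, map_zero]
    · have hwe : w * MonoidAlgebra.mapRingHom G q ê = w := by rw [hwc, hew]
      rw [hwe]
      exact hT
  -- Step 3: the orbit sum as a sum of lifts
  let L : MonoidAlgebra ℂ G → MonoidAlgebra (localSubring M hMp) G := fun s =>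
    if hs : s ∈ intSubring M hMp then lift hMp s hs else 0
  have hLincl : ∀ s ∈ orbit D c, incl hMp (L s) = s := by
    intro s hs
    have hsI := (orbit_mem hMp hc hs).2.2
    show incl hMp (if hs : s ∈ intSubring M hMp then lift hMp s hs else 0) = s
    rw [dif_pos hsI]
    exact incl_lift hMp s hsI
  have hOsum : lift hMp _ hOint = ∑ s ∈ orbit D c, L s := by
    apply incl_injective hMp
    rw [incl_lift, map_sum]
    exact (Finset.sum_congr rfl hLincl).symm
  -- Step 4: each summand kills `v`
  have hzero : ∀ s ∈ orbit D c, v * MonoidAlgebra.mapRingHom G q (L s) = 0 := by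
    intro s hs
    obtain ⟨x, hx, hxs⟩ := mem_orbit.mp hs
    have hLs : L s = MonoidAlgebra.single x 1 * ε' * MonoidAlgebra.single x⁻¹ 1 := by
      apply incl_injective hMp
      rw [hLincl s hs, map_mul, map_mul, incl_single_one, incl_single_one, hε', ← hxs,
        conjA_eq_single]
    rw [hLs, map_mul, map_mul, mapRingHom_single_one, mapRingHom_single_one]
    have hxC := normalizer_le_normalizer_centralizer D hx
    have hvx : v * MonoidAlgebra.single x (1 : F) = MonoidAlgebra.single x 1 * v := by
      apply MonoidAlgebra.ext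
      ext g
      rw [MonoidAlgebra.coeff_mul_single_apply, MonoidAlgebra.coeff_single_mul_apply, one_mul,
        mul_one]
      have hconj : g * x⁻¹ = x * (x⁻¹ * g) * x⁻¹ := by group
      rw [hconj]
      generalize x⁻¹ * g = h
      have hiff := Subgroup.mem_normalizer_iff.mp hxC h
      by_cases hh : h ∈ Subgroup.centralizer (D : Set G)
      · rw [hT.1 _ (hiff.mp hh), hT.1 _ hh, coeff_conj_of_central w hwc]
      · rw [hT.2 _ (fun h' => hh (hiff.mpr h')), hT.2 _ hh]
    rw [← mul_assoc, ← mul_assoc, hvx, mul_assoc (MonoidAlgebra.single x 1) v, hv, mul_zero,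
      zero_mul]
  rw [hvtb, htbob, hOsum, map_sum, Finset.mul_sum]
  exact Finset.sum_eq_zero hzero

end Cfsg.Agent.Lib.Helper65.OtBRI
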