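import Mathlib
import Cfsg.Agent.Lib.Helper87.PCStmt
import Cfsg.Agent.Lib.Helper87.FSBasic
import Cfsg.Agent.Lib.Helper87.FSLocal
import Cfsg.Agent.Lib.Helper87.ChainStab

/-! S5243, piece CS0: if `T` is strongly closed in `X` and `C_T(Q ∩ T)` is not contained in
`Q ∩ T`, the stabilizer in `Aut_X(Q)` of the chain `1 ≤ Q ∩ T ≤ Q` is a normal `p`-subgroup
containing the conjugation by some element of `N_T(Q)` outside `Q`. -/

set_option autoImplicit false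

namespace Cfsg.Agent.Lib.Helper65.PCCS0

open Cfsg Cfsg.FusionSystem
open Cfsg.Agent.Lib.Helper87

universe u

/-- The chain `Q ≥ Q ∩ T ≥ 1 ≥ 1 ≥ ...` of subgroups of `Q`. -/
def chainQT {Ω : Type*} [Group Ω] (Q T : Subgroup Ω) : ℕ → Subgroup Q
  | 0 => ⊤
  | 1 => T.subgroupOf Q
  | _ + 2 => ⊥

theorem main : Cfsg.Agent.Lib.Helper87.PCStmt.CS0.{u} := by
  intro Ω _ S T _ p _ hS X hT Q hQS hne
  have hTS : T ≤ S := hT.1
  -- `T` is normalized by `S`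
  have hTn : ∀ s ∈ S, ∀ t ∈ T, s * t * s⁻¹ ∈ T := by
    intro s hs t ht
    exact hT.2 T le_rfl _ (X.conj_mem hTS hs) ⟨t, ht⟩
  have hAT : centralizerIn T (Q ⊓ T) ≤ T := inf_le_left
  have hAS : centralizerIn T (Q ⊓ T) ≤ S := hAT.trans hTS
  have hAc : ∀ a ∈ centralizerIn T (Q ⊓ T), ∀ x ∈ Q ⊓ T, x * a = a * x := by
    intro a ha x hx
    have h1 : a ∈ Subgroup.centralizer ((Q ⊓ T : Subgroup Ω) : Set Ω) := ha.2
    rw [Subgroup.mem_centralizer_iff] at h1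
    exact h1 x hx
  -- `Q` normalizes `C_T(Q ∩ T)`
  have hconj : ∀ q ∈ Q, ∀ a ∈ centralizerIn T (Q ⊓ T), q * a * q⁻¹ ∈ centralizerIn T (Q ⊓ T) := by
    intro q hq a ha
    refine ⟨hTn q (hQS hq) a (hAT ha), ?_⟩
    show q * a * q⁻¹ ∈ Subgroup.centralizer ((Q ⊓ T : Subgroup Ω) : Set Ω)
    rw [Subgroup.mem_centralizer_iff]
    intro x hx
    have hx' : q⁻¹ * x * q ∈ Q ⊓ T := by
      refine ⟨Q.mul_mem (Q.mul_mem (Q.inv_mem hq) hx.1) hq, ?_⟩
      have := hTn q⁻¹ (S.inv_mem (hQS hq)) x hx.2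
      simpa using this
    have e := hAc a ha _ hx'
    calc x * (q * a * q⁻¹) = q * ((q⁻¹ * x * q) * a) * q⁻¹ := by group
      _ = q * (a * (q⁻¹ * x * q)) * q⁻¹ := by rw [e]
      _ = q * a * q⁻¹ * x := by group
  have hQA : Q ≤ Subgroup.normalizer ((centralizerIn T (Q ⊓ T) : Subgroup Ω) : Set Ω) := by
    intro q hq
    rw [Subgroup.mem_normalizer_iff]
    intro a
    constructor
    · exact hconj q hq a
    · intro h
      have := hconj q⁻¹ (Q.inv_mem hq) _ h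
      simpa [mul_assoc] using this
  have hne' : ¬ centralizerIn T (Q ⊓ T) ≤ Q := fun h => hne (le_inf h hAT)
  obtain ⟨g, hgA, hgN, hgQ⟩ := FSLocal.exists_mem_normalizer_of_not_le hS hQS hAS hQA hne'
  have hgT : g ∈ T := hAT hgA
  have hgS : g ∈ S := hTS hgT
  have hfinQ : Finite Q := Finite.of_injective (Subgroup.inclusion hQS)
    (Subgroup.inclusion_injective hQS)
  have hQp : IsPGroup p Q := hS.to_le hQS
  -- the chain is invariant under `Aut_X(Q)`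
  have hinv : ∀ α ∈ X.autGroup Q, ∀ i, ∀ x ∈ chainQT Q T i, α x ∈ chainQT Q T i := by
    intro α hα i x hx
    match i, hx with
    | 0, _ => exact Subgroup.mem_top _
    | 1, hx =>
      have hx1 : (x : Ω) ∈ T := Subgroup.mem_subgroupOf.mp hx
      have h1 := (FSBasic.mem_autGroup_iff X hQS α).mp hα
      have h2 := FSBasic.restrict_mem X h1 (inf_le_left : Q ⊓ T ≤ Q)
      have h3 := hT.2 (Q ⊓ T) inf_le_right _ h2 ⟨x, ⟨x.2, hx1⟩⟩
      exact Subgroup.mem_subgroupOf.mpr h3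
    | n + 2, hx =>
      have hx1 : x = 1 := Subgroup.mem_bot.mp hx
      rw [hx1, map_one]
      exact Subgroup.one_mem _
  refine ⟨ChainStab.chainStab (X.autGroup Q) (chainQT Q T) hinv,
    ChainStab.chainStab_isPGroup hQp _ _ hinv rfl 2 rfl,
    ChainStab.chainStab_le _ _ hinv,
    ChainStab.chainStab_normal _ _ hinv, g, hgS, hgN, hgQ, ?_⟩
  rw [ChainStab.mem_chainStab_iff]
  refine ⟨FSBasic.autInducedBy_le_autGroup X hQS (FSBasic.conj_mem_autInducedBy hgS hgN), ?_⟩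
  intro i x hx
  match i, hx with
  | 0, _ =>
    show x⁻¹ * Q.normalizerMonoidHom ⟨g, hgN⟩ x ∈ T.subgroupOf Q
    rw [Subgroup.mem_subgroupOf]
    show (x : Ω)⁻¹ * (g * x * g⁻¹) ∈ T
    have h1 := hTn (x : Ω)⁻¹ (S.inv_mem (hQS x.2)) g hgT
    have h2 := T.mul_mem h1 (T.inv_mem hgT)
    have e : (x : Ω)⁻¹ * (g * x * g⁻¹) = (x : Ω)⁻¹ * g * ((x : Ω)⁻¹)⁻¹ * g⁻¹ := by group
    rw [e]
    exact h2
  | 1, hx =>
    have hx1 : (x : Ω) ∈ T := Subgroup.mem_subgroupOf.mp hx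
    have e := hAc g hgA (x : Ω) ⟨x.2, hx1⟩
    show x⁻¹ * Q.normalizerMonoidHom ⟨g, hgN⟩ x ∈ (⊥ : Subgroup Q)
    rw [Subgroup.mem_bot]
    apply Subtype.ext
    show (x : Ω)⁻¹ * (g * x * g⁻¹) = 1
    rw [← e]
    group
  | n + 2, hx =>
    have hx1 : x = 1 := Subgroup.mem_bot.mp hx
    rw [hx1, map_one, inv_one, one_mul]
    exact Subgroup.one_mem _

end Cfsg.Agent.Lib.Helper65.PCCS0
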