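import Mathlib
import Cfsg.Agent.Lib.Helper87.PCStmt
import Cfsg.Agent.Lib.Helper87.FSBasic

/-! S5243, piece CS1: `HasNormalPConj` at a subgroup `Q` with `C_S(Q) ≤ Q` gives the condition
of the saturation criterion. -/

set_option autoImplicit false

namespace Cfsg.Agent.Lib.Helper65.PCCS1

open Cfsg Cfsg.FusionSystem

universe u

theorem main : Cfsg.Agent.Lib.Helper87.PCStmt.CS1.{u} := by
  intro Ω _ S _ p _ hS X Q hQS hcen hN hle
  obtain ⟨B, hBp, hBle, hBn, g, hgS, hgN, hgQ, hgB⟩ := hN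
  -- the conjugation by `g` is induced by `S`
  have h1 : Q.normalizerMonoidHom ⟨g, hgN⟩ ∈ autInducedBy S Q :=
    Cfsg.Agent.Lib.Helper87.FSBasic.conj_mem_autInducedBy hgS hgN
  -- `B` gives a normal `p`-subgroup of `Aut_X(Q)`
  have hBnorm : (B.subgroupOf (X.autGroup Q)).Normal := by
    constructor
    intro β hβ χ
    rw [Subgroup.mem_subgroupOf] at hβ ⊢
    exact hBn χ.1 χ.2 β.1 hβ
  have hBpg : IsPGroup p (B.subgroupOf (X.autGroup Q)) :=
    hBp.comap_of_injective _ (Subgroup.subtype_injective _)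
  have hBcore : B.subgroupOf (X.autGroup Q) ≤ pCore p ↥(X.autGroup Q) :=
    le_sSup ⟨hBnorm, hBpg⟩
  have h2 : Q.normalizerMonoidHom ⟨g, hgN⟩ ∈
      (pCore p ↥(X.autGroup Q)).map (X.autGroup Q).subtype := by
    refine ⟨⟨Q.normalizerMonoidHom ⟨g, hgN⟩, hBle hgB⟩, hBcore ?_, rfl⟩
    rw [Subgroup.mem_subgroupOf]
    exact hgB
  obtain ⟨y, hy⟩ := hle ⟨h1, h2⟩
  -- `y⁻¹ g` centralizes `Q`
  have h3 : ∀ x : Q, (y : Ω) * x * (y : Ω)⁻¹ = g * x * g⁻¹ := by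
    intro x
    have := congrArg (fun α : MulAut Q => ((α x : Q) : Ω)) hy
    exact this
  have h4 : (y : Ω)⁻¹ * g ∈ centralizerIn S Q := by
    refine ⟨S.mul_mem (S.inv_mem (hQS y.2)) hgS, ?_⟩
    show (y : Ω)⁻¹ * g ∈ Subgroup.centralizer (Q : Set Ω)
    rw [Subgroup.mem_centralizer_iff]
    intro x hx
    have e := h3 ⟨x, hx⟩
    have e' : (y : Ω) * x * (y : Ω)⁻¹ = g * x * g⁻¹ := e
    calc x * ((y : Ω)⁻¹ * g) = (y : Ω)⁻¹ * ((y : Ω) * x * (y : Ω)⁻¹) * g := by group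
      _ = (y : Ω)⁻¹ * (g * x * g⁻¹) * g := by rw [e']
      _ = (y : Ω)⁻¹ * g * x := by group
  have h5 := hcen h4
  apply hgQ
  have h6 := Q.mul_mem y.2 h5
  simpa using h6

end Cfsg.Agent.Lib.Helper65.PCCS1
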