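import Mathlib
import Cfsg.Agent.Lib.Helper44.PGStmt
import Cfsg.Agent.Lib.Helper44.NegPairs
import Cfsg.Agent.Lib.Helper42.SpOrdD
import Cfsg.Agent.Lib.Helper65.PGCSUF1

/-!
S2474 piece BSUF2: `Ω(2n+1, q)` has elements of order `p * s` when `CritII` holds
(unipotent block of dimension 3 plus a torus block).
-/

set_option autoImplicit false

namespace Cfsg.Agent.Lib.Helper65.PGBSUF2

open Matrix Polynomial
open Cfsg.Agent.Lib.Helper44.PGStmt
open Cfsg.Agent.Lib.Helper44.QSpace Cfsg.Agent.Lib.Helper44.OGroup Cfsg.Agent.Lib.Helper44.OMat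
open Cfsg.Agent.Lib.Helper44.OExt
open Cfsg.Agent.Lib.Helper44.NegPairs (oddQ sep_oddQ)
open Cfsg.Agent.Lib.Helper42.SpOrdD (orderOf_eq_of_pow_iff)
open Cfsg.Agent.Lib.Helper65.PGCSUF1 (two_ne_zero_of_char)

universe u

/-- an isometry of odd order whose square lies in a subgroup lies in that subgroup -/
theorem mem_of_sq_mem_of_odd {H : Type*} [Group H] (K : Subgroup H) (g : H) (m : ℕ)
    (hm : Odd m) (hg : orderOf g = m) (hsq : g ^ 2 ∈ K) : g ∈ K := by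
  obtain ⟨t, ht⟩ := hm
  have h1 : g = (g ^ 2) ^ (t + 1) := by
    rw [← pow_mul]
    have h2 : 2 * (t + 1) = m + 1 := by omega
    rw [h2, pow_succ, ← hg, pow_orderOf_eq_one, one_mul]
  rw [h1]
  exact Subgroup.pow_mem _ hsq _

/-- [BSUF2] -/
theorem main (hOM : OTorMinus.{u}) (hOP : OTorPlus.{u}) (hBS : BlockSum.{u}) (hOE : OEmbed.{u})
    (hSq : SqMem.{u}) (hU3 : Unip3.{u}) : BSufII.{u} := by
  intro F _ _ p _ _ hp2 n hn s hs hs2 hsp hcrit
  have hp : p.Prime := Fact.out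
  have h2 : (2 : F) ≠ 0 := two_ne_zero_of_char p hp2
  obtain ⟨k, hk1, hkn, hT⟩ := hcrit
  obtain ⟨κ, instF, instD, N₂, s₂, hcard, hdet₂, hiso₂, hord₂⟩ :
      ∃ (κ : Type) (_ : Fintype κ) (_ : DecidableEq κ) (N s' : Matrix κ κ F),
        Fintype.card κ = 2 * k ∧ (N + Nᵀ).det ≠ 0 ∧ (∀ u, qN N (s' *ᵥ u) = qN N u) ∧
        ∀ j : ℕ, s' ^ j = 1 ↔ s ∣ j := by
    rcases hT with h | h
    · exact hOM F h2 k s hk1 h
    · exact hOP F h2 k s hk1 h
  obtain ⟨N₁, U, hdet₁, hiso₁, hUp, hU1⟩ := hU3 F p h2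
  obtain ⟨hdet, hiso, hpow⟩ := hBS F (Fin 3) κ N₁ U N₂ s₂ hdet₁ hdet₂ hiso₁ hiso₂
  have hcard' : Fintype.card (Fin 3 ⊕ κ) ≤ 2 * n + 1 := by
    rw [Fintype.card_sum, Fintype.card_fin, hcard]
    omega
  obtain ⟨g, hg⟩ := hOE F h2 n (Fin 3 ⊕ κ) _ _ hcard' hdet hiso
  have hUord : ∀ j : ℕ, U ^ j = 1 ↔ p ∣ j := by
    intro j
    have hoU : orderOf U = p := by
      have h1 : orderOf U ∣ p := orderOf_dvd_of_pow_eq_one hUp
      rcases (Nat.dvd_prime hp).1 h1 with h | h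
      · exact absurd (orderOf_eq_one_iff.1 h) hU1
      · exact h
    rw [← hoU, orderOf_dvd_iff_pow_eq_one]
  have hgord : orderOf g = p * s := by
    refine orderOf_eq_of_pow_iff g (p * s) fun j => ?_
    rw [hg j, hpow j, hUord j, hord₂ j]
    constructor
    · rintro ⟨h1, h2'⟩
      exact Nat.Coprime.mul_dvd_of_dvd_of_dvd ((Nat.coprime_primes hp hs).2 (Ne.symm hsp)) h1 h2'
    · intro h
      exact ⟨(dvd_mul_right p s).trans h, (dvd_mul_left s p).trans h⟩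
  have hodd : Odd (p * s) := (hp.odd_of_ne_two hp2).mul (hs.odd_of_ne_two hs2)
  have hsq : g ^ 2 ∈ Cfsg.Omega F (Cfsg.quadFormOdd n F) :=
    hSq F _ (oddQ n F) h2 (sep_oddQ h2 n) g
  exact ⟨g, mem_of_sq_mem_of_odd _ g (p * s) hodd hgord hsq, hgord⟩

end Cfsg.Agent.Lib.Helper65.PGBSUF2
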