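import Mathlib
import Cfsg.Agent.Lib.Helper44.PGStmt
import Cfsg.Agent.Lib.Helper44.NegPairs
import Cfsg.Agent.Lib.Helper42.SpOrdD
import Cfsg.Agent.Lib.Helper65.PGCSUF1
import Cfsg.Agent.Lib.Helper65.PGBSUF2

/-!
S2474 piece BSUF1: `Ω(2n+1, q)` has elements of order `r * s` when `CritI` holds
(two torus blocks, or one torus block).
-/

set_option autoImplicit false

namespace Cfsg.Agent.Lib.Helper65.PGBSUF1

open Matrix Polynomial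
open Cfsg.Agent.Lib.Helper44.PGStmt
open Cfsg.Agent.Lib.Helper44.QSpace Cfsg.Agent.Lib.Helper44.OGroup Cfsg.Agent.Lib.Helper44.OMat
open Cfsg.Agent.Lib.Helper44.OExt
open Cfsg.Agent.Lib.Helper44.NegPairs (oddQ sep_oddQ)
open Cfsg.Agent.Lib.Helper42.SpOrdD (orderOf_eq_of_pow_iff)
open Cfsg.Agent.Lib.Helper65.PGCSUF1 (two_ne_zero_of_char)
open Cfsg.Agent.Lib.Helper65.PGBSUF2 (mem_of_sq_mem_of_odd)

universe u

/-- a torus block of order exactly `K` in dimension `2k` -/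
theorem torus_block (hOM : OTorMinus.{u}) (hOP : OTorPlus.{u}) (F : Type u) [Field F]
    [Fintype F] (h2 : (2 : F) ≠ 0) (k K : ℕ) (hk : 1 ≤ k) (hT : Tor (Fintype.card F) k K) :
    ∃ (κ : Type) (_ : Fintype κ) (_ : DecidableEq κ) (N s' : Matrix κ κ F),
      Fintype.card κ = 2 * k ∧ (N + Nᵀ).det ≠ 0 ∧ (∀ u, qN N (s' *ᵥ u) = qN N u) ∧
      ∀ j : ℕ, s' ^ j = 1 ↔ K ∣ j := by
  rcases hT with h | h
  · exact hOM F h2 k K hk h
  · exact hOP F h2 k K hk h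

/-- [BSUF1] -/
theorem main (hOM : OTorMinus.{u}) (hOP : OTorPlus.{u}) (hBS : BlockSum.{u}) (hOE : OEmbed.{u})
    (hSq : SqMem.{u}) : BSufI.{u} := by
  intro F _ _ p _ _ hp2 n hn r s hr hs hrs hr2 hs2 hrp hsp hcrit
  have h2 : (2 : F) ≠ 0 := two_ne_zero_of_char p hp2
  have hodd : Odd (r * s) := (hr.odd_of_ne_two hr2).mul (hs.odd_of_ne_two hs2)
  suffices h : ∃ g : ↥(Cfsg.isometryGroup F (Cfsg.quadFormOdd n F)), orderOf g = r * s by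
    obtain ⟨g, hgord⟩ := h
    have hsq : g ^ 2 ∈ Cfsg.Omega F (Cfsg.quadFormOdd n F) :=
      hSq F _ (oddQ n F) h2 (sep_oddQ h2 n) g
    exact ⟨g, mem_of_sq_mem_of_odd _ g (r * s) hodd hgord hsq, hgord⟩
  rcases hcrit with ⟨k₁, k₂, hk₁, hk₂, hk, hT₁, hT₂⟩ | ⟨k, hk1, hkn, hT⟩
  · obtain ⟨κ₁, instF₁, instD₁, N₁, s₁, hcard₁, hdet₁, hiso₁, hord₁⟩ :=
      torus_block hOM hOP F h2 k₁ r hk₁ hT₁
    obtain ⟨κ₂, instF₂, instD₂, N₂, s₂, hcard₂, hdet₂, hiso₂, hord₂⟩ :=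
      torus_block hOM hOP F h2 k₂ s hk₂ hT₂
    obtain ⟨hdet, hiso, hpow⟩ := hBS F κ₁ κ₂ N₁ s₁ N₂ s₂ hdet₁ hdet₂ hiso₁ hiso₂
    have hcard' : Fintype.card (κ₁ ⊕ κ₂) ≤ 2 * n + 1 := by
      rw [Fintype.card_sum, hcard₁, hcard₂]
      omega
    obtain ⟨g, hg⟩ := hOE F h2 n (κ₁ ⊕ κ₂) _ _ hcard' hdet hiso
    refine ⟨g, orderOf_eq_of_pow_iff g (r * s) fun j => ?_⟩
    rw [hg j, hpow j, hord₁ j, hord₂ j]
    constructor
    · rintro ⟨h1, h2'⟩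
      exact Nat.Coprime.mul_dvd_of_dvd_of_dvd ((Nat.coprime_primes hr hs).2 hrs) h1 h2'
    · intro h
      exact ⟨(dvd_mul_right r s).trans h, (dvd_mul_left s r).trans h⟩
  · obtain ⟨κ, instF, instD, N, s', hcard, hdet, hiso, hord⟩ :=
      torus_block hOM hOP F h2 k (r * s) hk1 hT
    have hcard' : Fintype.card κ ≤ 2 * n + 1 := by
      rw [hcard]
      omega
    obtain ⟨g, hg⟩ := hOE F h2 n κ N s' hcard' hdet hiso
    refine ⟨g, orderOf_eq_of_pow_iff g (r * s) fun j => ?_⟩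
    rw [hg j, hord j]

end Cfsg.Agent.Lib.Helper65.PGBSUF1
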