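import Mathlib

set_option autoImplicit false
set_option linter.unusedSectionVars false
set_option linter.style.haveILetI false
set_option linter.unusedVariables false

namespace Cfsg.Agent.Lib.Helper65.PowGraph

open Subgroup

section basics

variable {G : Type*} [Group G] [Finite G]

/-- adjacency in the power graph -/
def adj (x y : G) : Prop := x ∈ zpowers y ∨ y ∈ zpowers x

lemma adj_comm {x y : G} : adj x y ↔ adj y x := or_comm

lemma adj_self (x : G) : adj x x := Or.inl (mem_zpowers x)

lemma adj_one (x : G) : adj x 1 := Or.inr (one_mem _)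

lemma adj_of_mem {x y : G} (h : x ∈ zpowers y) : adj x y := Or.inl h

lemma adj_of_mem' {x y : G} (h : x ∈ zpowers y) : adj y x := Or.inr h

/-- in a finite cyclic group, membership in cyclic subgroups is divisibility of orders -/
lemma mem_zpowers_of_dvd {x y z : G} (hy : y ∈ zpowers x) (hz : z ∈ zpowers x)
    (h : orderOf y ∣ orderOf z) : y ∈ zpowers z := by
  classical
  haveI : Fintype G := Fintype.ofFinite G
  have hd : 0 < orderOf z := orderOf_pos z
  let y' : zpowers x := ⟨y, hy⟩
  let z' : zpowers x := ⟨z, hz⟩
  have hoz : orderOf z' = orderOf z := Subgroup.orderOf_mk z hz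
  have hcard := IsCyclic.card_pow_eq_one_le (α := zpowers x) hd
  have hsub : (Finset.univ.filter (fun t : zpowers x => t ∈ zpowers z')) ⊆
      Finset.univ.filter (fun t : zpowers x => t ^ orderOf z = 1) := by
    intro t ht
    simp only [Finset.mem_filter, Finset.mem_univ, true_and] at ht ⊢
    obtain ⟨k, rfl⟩ := ht
    rw [← zpow_natCast, ← zpow_mul, mul_comm, zpow_mul, zpow_natCast, ← hoz, pow_orderOf_eq_one,
      one_zpow]
  have hc2 : (Finset.univ.filter (fun t : zpowers x => t ∈ zpowers z')).card = orderOf z := by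
    rw [← Fintype.card_subtype, Fintype.card_eq_nat_card]
    exact (Nat.card_zpowers z').trans hoz
  have heq := Finset.eq_of_subset_of_card_le hsub (by rw [hc2]; exact hcard)
  have hy1 : y' ∈ Finset.univ.filter (fun t : zpowers x => t ^ orderOf z = 1) := by
    simp only [Finset.mem_filter, Finset.mem_univ, true_and]
    apply Subtype.ext
    simp only [y', Subgroup.coe_pow, Subgroup.coe_one]
    exact orderOf_dvd_iff_pow_eq_one.mp h
  rw [← heq] at hy1
  simp only [Finset.mem_filter, Finset.mem_univ, true_and] at hy1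
  obtain ⟨k, hk⟩ := hy1
  refine ⟨k, ?_⟩
  have := congrArg Subtype.val hk
  simpa [z', y'] using this

lemma mem_zpowers_iff_dvd {x y z : G} (hy : y ∈ zpowers x) (hz : z ∈ zpowers x) :
    y ∈ zpowers z ↔ orderOf y ∣ orderOf z :=
  ⟨fun h => orderOf_dvd_of_mem_zpowers h, mem_zpowers_of_dvd hy hz⟩

/-- existence of elements of each order dividing the order -/
lemma exists_mem_zpowers_orderOf (x : G) {d : ℕ} (hd : d ∣ orderOf x) :
    ∃ y ∈ zpowers x, orderOf y = d := by
  have hx : 0 < orderOf x := orderOf_pos x
  obtain ⟨c, hc⟩ := hd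
  have hc0 : c ≠ 0 := by rintro rfl; rw [mul_zero] at hc; omega
  have hd0 : d ≠ 0 := by rintro rfl; rw [zero_mul] at hc; omega
  refine ⟨x ^ c, ⟨c, by simp⟩, ?_⟩
  rw [orderOf_pow_of_dvd hc0 ⟨d, by rw [hc, mul_comm]⟩, hc]
  exact Nat.mul_div_cancel _ (Nat.pos_of_ne_zero hc0)

lemma zpowers_eq_of_orderOf_eq {x y z : G} (hy : y ∈ zpowers x) (hz : z ∈ zpowers x)
    (h : orderOf y = orderOf z) : zpowers y = zpowers z := by
  apply le_antisymm
  · rw [zpowers_le]; exact mem_zpowers_of_dvd hy hz (by rw [h])
  · rw [zpowers_le]; exact mem_zpowers_of_dvd hz hy (by rw [h])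

/-- the number of generators of a cyclic subgroup -/
lemma card_gens (a : G) : Nat.card {w : G // zpowers w = zpowers a} = Nat.totient (orderOf a) := by
  classical
  haveI : Fintype G := Fintype.ofFinite G
  have h1 := IsCyclic.card_orderOf_eq_totient (α := zpowers a) (d := orderOf a)
    (by rw [Fintype.card_zpowers])
  rw [← h1, ← Fintype.card_subtype, Fintype.card_eq_nat_card]
  apply Nat.card_congr
  refine ⟨fun w => ⟨⟨w.1, ?_⟩, ?_⟩, fun t => ⟨t.1.1, ?_⟩, ?_, ?_⟩
  · have h := w.2
    have h2 : w.1 ∈ zpowers w.1 := mem_zpowers _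
    rw [h] at h2; exact h2
  · rw [Subgroup.orderOf_mk, ← Nat.card_zpowers, ← Nat.card_zpowers a, w.2]
  · have h := t.2
    have h' : orderOf (t.1 : G) = orderOf a := (Subgroup.orderOf_coe t.1).trans h
    exact zpowers_eq_of_orderOf_eq t.1.2 (mem_zpowers a) h'
  · intro w; rfl
  · intro t; rfl

end basics

/-- totient lower bound -/
lemma le_two_mul_totient_sq (n : ℕ) (hn : 0 < n) : n ≤ 2 * n.totient ^ 2 := by
  have key : ∀ n : ℕ, 0 < n → n ≤ (if Even n then 2 else 1) * n.totient ^ 2 := by
    intro n
    induction n using Nat.recOnPosPrimePosCoprime with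
    | prime_pow p k hp hk =>
      intro _
      obtain ⟨j, rfl⟩ : ∃ j, k = j + 1 := ⟨k - 1, by omega⟩
      rw [Nat.totient_prime_pow_succ hp]
      rcases hp.eq_two_or_odd' with rfl | hodd
      · have : Even (2 ^ (j + 1)) := by
          rw [Nat.even_pow]; exact ⟨even_two, by omega⟩
        rw [if_pos this]
        have h1 : (2:ℕ) ^ j ≤ (2 ^ j) ^ 2 := by
          have : 1 ≤ 2 ^ j := Nat.one_le_two_pow
          nlinarith
        simp only [Nat.add_one_sub_one, mul_one]
        calc 2 ^ (j + 1) = 2 * 2 ^ j := by ring
          _ ≤ 2 * (2 ^ j) ^ 2 := by omega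
      · have : ¬ Even (p ^ (j + 1)) := by
          rw [Nat.not_even_iff_odd]; exact hodd.pow
        rw [if_neg this, one_mul]
        have hp3 : 3 ≤ p := by
          have := hp.two_le
          rcases hodd with ⟨c, hc⟩
          omega
        have h1 : p ≤ (p - 1) ^ 2 := by
          obtain ⟨c, rfl⟩ : ∃ c, p = c + 3 := ⟨p - 3, by omega⟩
          have : c + 3 - 1 = c + 2 := by omega
          rw [this]; nlinarith
        have h2 : p ^ j ≤ (p ^ j) ^ 2 := by
          have : 1 ≤ p ^ j := Nat.one_le_pow _ _ hp.pos
          nlinarith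
        calc p ^ (j + 1) = p ^ j * p := by ring
          _ ≤ (p ^ j) ^ 2 * (p - 1) ^ 2 := Nat.mul_le_mul h2 h1
          _ = (p ^ j * (p - 1)) ^ 2 := by ring
    | zero => intro h; omega
    | one => intro _; simp
    | coprime a b ha hb hab iha ihb =>
      intro _
      have ha' := iha (by omega)
      have hb' := ihb (by omega)
      rw [Nat.totient_mul hab]
      have hc : (if Even (a * b) then 2 else 1) =
          (if Even a then 2 else 1) * (if Even b then 2 else 1) := by
        by_cases hea : Even a
        · have hob : ¬ Even b := by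
            intro heb
            have h2 : 2 ∣ Nat.gcd a b := Nat.dvd_gcd hea.two_dvd heb.two_dvd
            rw [hab] at h2
            omega
          have : Even (a * b) := hea.mul_right b
          rw [if_pos this, if_pos hea, if_neg hob]
        · by_cases heb : Even b
          · have : Even (a * b) := heb.mul_left a
            rw [if_pos this, if_neg hea, if_pos heb]
          · have : ¬ Even (a * b) := by
              rw [Nat.even_mul]; tauto
            rw [if_neg this, if_neg hea, if_neg heb]
      rw [hc]
      calc a * b ≤ ((if Even a then 2 else 1) * a.totient ^ 2) *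
            ((if Even b then 2 else 1) * b.totient ^ 2) := Nat.mul_le_mul ha' hb'
        _ = _ := by ring
  have := key n hn
  split_ifs at this <;> omega

end Cfsg.Agent.Lib.Helper65.PowGraph
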