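import Cfsg.Agent.Lib.Helper65.PowGraph

set_option autoImplicit false
set_option linter.unusedSectionVars false
set_option linter.style.haveILetI false
set_option linter.unusedVariables false

namespace Cfsg.Agent.Lib.Helper65.PowGraphA

open Subgroup Cfsg.Agent.Lib.Helper65.PowGraph

/-- the invariant, for an abstract relation -/
def Pq {α : Type*} (r : α → α → Prop) (p q : ℕ) : Prop :=
  ∃ x u v : α, ¬ r u v ∧ r x u ∧ r x v ∧ (∃ w, ¬ r w x) ∧
    Nat.card {w // ∀ z, r z w ↔ r z u} = p - 1 ∧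
    Nat.card {w // ∀ z, r z w ↔ r z v} = q - 1 ∧
    Nat.card {w // ∀ z, r z w ↔ r z x} = (p - 1) * (q - 1) ∧
    (∀ w, r w x → ¬ r w v → ∀ z, r z w ↔ r z u) ∧
    (∀ w, r w x → ¬ r w u → ∀ z, r z w ↔ r z v)

/-- the cyclic invariant -/
def Rq {α : Type*} (r : α → α → Prop) (p q : ℕ) : Prop :=
  Nat.card α = p * q ∧ ∃ s s' : α, s ≠ s' ∧ (∀ w, r w s) ∧ (∀ w, r w s')

lemma eqv_congr {α β : Type*} (r : α → α → Prop) (s : β → β → Prop) (e : α ≃ β)
    (h : ∀ x y, r x y ↔ s (e x) (e y)) (w u : α) :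
    (∀ z, r z w ↔ r z u) ↔ (∀ z, s z (e w) ↔ s z (e u)) := by
  constructor
  · intro hz z'
    obtain ⟨z, rfl⟩ := e.surjective z'
    rw [← h, ← h]; exact hz z
  · intro hz z
    rw [h, h]; exact hz (e z)

lemma card_congr' {α β : Type*} (r : α → α → Prop) (s : β → β → Prop) (e : α ≃ β)
    (h : ∀ x y, r x y ↔ s (e x) (e y)) (u : α) :
    Nat.card {w // ∀ z, s z w ↔ s z (e u)} = Nat.card {w // ∀ z, r z w ↔ r z u} :=
  (Nat.card_congr (e.subtypeEquiv (fun w => eqv_congr r s e h w u))).symm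

lemma Pq_congr {α β : Type*} (r : α → α → Prop) (s : β → β → Prop) (e : α ≃ β)
    (h : ∀ x y, r x y ↔ s (e x) (e y)) {p q : ℕ} : Pq r p q → Pq s p q := by
  rintro ⟨x, u, v, h1, h2, h3, ⟨w0, h4⟩, h5, h6, h7, h8, h9⟩
  refine ⟨e x, e u, e v, (h _ _).not.mp h1, (h _ _).mp h2, (h _ _).mp h3,
    ⟨e w0, (h _ _).not.mp h4⟩, ?_, ?_, ?_, ?_, ?_⟩
  · rw [card_congr' r s e h u, h5]
  · rw [card_congr' r s e h v, h6]
  · rw [card_congr' r s e h x, h7]
  · intro w' hw1 hw2
    obtain ⟨w, rfl⟩ := e.surjective w'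
    exact (eqv_congr r s e h w u).mp (h8 w ((h _ _).mpr hw1) ((h _ _).not.mpr hw2))
  · intro w' hw1 hw2
    obtain ⟨w, rfl⟩ := e.surjective w'
    exact (eqv_congr r s e h w v).mp (h9 w ((h _ _).mpr hw1) ((h _ _).not.mpr hw2))

lemma Rq_congr {α β : Type*} (r : α → α → Prop) (s : β → β → Prop) (e : α ≃ β)
    (h : ∀ x y, r x y ↔ s (e x) (e y)) {p q : ℕ} : Rq r p q → Rq s p q := by
  rintro ⟨hc, a, b, hab, ha, hb⟩
  refine ⟨by rw [← hc]; exact Nat.card_congr e.symm, e a, e b, fun hh => hab (e.injective hh), ?_, ?_⟩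
  · intro w'
    obtain ⟨w, rfl⟩ := e.surjective w'
    exact (h _ _).mp (ha w)
  · intro w'
    obtain ⟨w, rfl⟩ := e.surjective w'
    exact (h _ _).mp (hb w)

variable {G : Type*} [Group G] [Finite G]

lemma eqv_of_zpowers_eq {w a : G} (h : zpowers w = zpowers a) (z : G) : adj z w ↔ adj z a := by
  unfold adj
  have h1 : w ∈ zpowers z ↔ a ∈ zpowers z := by
    rw [← zpowers_le, ← zpowers_le, h]
  rw [h, h1]

lemma orderOf_dvd_of_mem {x y : G} (h : x ∈ zpowers y) : orderOf x ∣ orderOf y :=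
  orderOf_dvd_of_mem_zpowers h

lemma exists_not_adj_of_root {p q : ℕ} (hp : p.Prime) (hq : q.Prime) (hpq : p ≠ q) {g w : G}
    (hg : orderOf g = p * q) (hgw : g ∈ zpowers w) (hwg : w ∉ zpowers g) :
    ∃ z ∈ zpowers w, ¬ adj z g := by
  have hN : p * q ∣ orderOf w := hg ▸ orderOf_dvd_of_mem hgw
  obtain ⟨k, hk⟩ := hN
  have hpos : 0 < orderOf w := orderOf_pos w
  have hk1 : k ≠ 1 := by
    rintro rfl
    apply hwg
    apply mem_zpowers_of_dvd (mem_zpowers w) hgw
    rw [hk, hg, mul_one]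
  set r := k.minFac with hr
  have hrp : r.Prime := Nat.minFac_prime hk1
  have hrk : r ∣ k := Nat.minFac_dvd k
  have key : ∀ d : ℕ, d ∣ orderOf w → ¬ d ∣ p * q → ¬ p * q ∣ d → ∃ z ∈ zpowers w, ¬ adj z g := by
    intro d hd h1 h2
    obtain ⟨z, hz, hoz⟩ := exists_mem_zpowers_orderOf w hd
    refine ⟨z, hz, ?_⟩
    rintro (h | h)
    · exact h1 (by rw [← hoz, ← hg]; exact orderOf_dvd_of_mem h)
    · exact h2 (by rw [← hoz, ← hg]; exact orderOf_dvd_of_mem h)
  by_cases h1 : r = p
  · apply key (p * p)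
    · rw [hk]; obtain ⟨c, hc⟩ := hrk; rw [hc, h1]; exact ⟨q * c, by ring⟩
    · intro hd
      have : p ∣ q := (Nat.mul_dvd_mul_iff_left hp.pos).mp hd
      exact hpq ((Nat.prime_dvd_prime_iff_eq hp hq).mp this)
    · intro hd
      have : q ∣ p := (Nat.mul_dvd_mul_iff_left hp.pos).mp hd
      exact hpq ((Nat.prime_dvd_prime_iff_eq hq hp).mp this).symm
  by_cases h2 : r = q
  · apply key (q * q)
    · rw [hk]; obtain ⟨c, hc⟩ := hrk; rw [hc, h2]; exact ⟨p * c, by ring⟩
    · intro hd
      have : q ∣ p := (Nat.mul_dvd_mul_iff_right hq.pos).mp hd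
      exact hpq ((Nat.prime_dvd_prime_iff_eq hq hp).mp this).symm
    · intro hd
      have : p ∣ q := (Nat.mul_dvd_mul_iff_right hq.pos).mp hd
      exact hpq ((Nat.prime_dvd_prime_iff_eq hp hq).mp this)
  · apply key r
    · rw [hk]; exact Dvd.dvd.mul_left hrk _
    · intro hd
      rcases (Nat.Prime.dvd_mul hrp).mp hd with h | h
      · exact h1 ((Nat.prime_dvd_prime_iff_eq hrp hp).mp h)
      · exact h2 ((Nat.prime_dvd_prime_iff_eq hrp hq).mp h)
    · intro hd
      have : p ∣ r := Dvd.dvd.trans (Dvd.intro _ rfl) hd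
      exact h1 ((Nat.prime_dvd_prime_iff_eq hp hrp).mp this).symm

lemma sideA {p q : ℕ} (hp : p.Prime) (hq : q.Prime) (hpq : p ≠ q) {g a b : G}
    (hg : orderOf g = p * q) (ha : a ∈ zpowers g) (hb : b ∈ zpowers g)
    (hoa : orderOf a = p) (hob : orderOf b = q) (w : G) (h1 : adj w g) (h2 : ¬ adj w b) :
    zpowers w = zpowers a := by
  have hwg : w ∈ zpowers g := by
    rcases h1 with h | h
    · exact h
    · exfalso; apply h2
      have : zpowers g ≤ zpowers w := by rw [zpowers_le]; exact h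
      exact Or.inr (this hb)
  have hqw : ¬ q ∣ orderOf w := by
    intro hd
    apply h2
    exact Or.inr (mem_zpowers_of_dvd hb hwg (by rw [hob]; exact hd))
  have hdw : orderOf w ∣ p * q := hg ▸ orderOf_dvd_of_mem hwg
  have hcop : Nat.Coprime (orderOf w) q := by
    rw [Nat.coprime_comm]; exact (Nat.Prime.coprime_iff_not_dvd hq).mpr hqw
  have hdp : orderOf w ∣ p := hcop.dvd_of_dvd_mul_right hdw
  have hw1 : orderOf w ≠ 1 := by
    intro h
    rw [orderOf_eq_one_iff] at h
    apply h2; rw [h]; exact Or.inl (one_mem _)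
  have : orderOf w = p := by
    rcases (Nat.dvd_prime hp).mp hdp with h | h
    · exact absurd h hw1
    · exact h
  exact zpowers_eq_of_orderOf_eq hwg ha (by rw [this, hoa])

lemma not_adj_of_orders {p q : ℕ} (hp : p.Prime) (hq : q.Prime) (hpq : p ≠ q) {a b : G}
    (hoa : orderOf a = p) (hob : orderOf b = q) : ¬ adj a b := by
  rintro (h | h)
  · have := orderOf_dvd_of_mem h
    rw [hoa, hob] at this
    exact hpq ((Nat.prime_dvd_prime_iff_eq hp hq).mp this)
  · have := orderOf_dvd_of_mem h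
    rw [hoa, hob] at this
    exact hpq ((Nat.prime_dvd_prime_iff_eq hq hp).mp this).symm

lemma cls_small {p q : ℕ} (hp : p.Prime) (hq : q.Prime) (hpq : p ≠ q) {g a b : G}
    (hg : orderOf g = p * q) (ha : a ∈ zpowers g) (hb : b ∈ zpowers g)
    (hoa : orderOf a = p) (hob : orderOf b = q) :
    Nat.card {w // ∀ z, adj z w ↔ adj z a} = p - 1 := by
  have : ∀ w : G, (∀ z, adj z w ↔ adj z a) ↔ zpowers w = zpowers a := by
    intro w
    constructor
    · intro hz
      apply sideA hp hq hpq hg ha hb hoa hob w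
      · exact adj_comm.mp ((hz g).mpr (Or.inr ha))
      · intro h
        have := (hz b).mp (adj_comm.mp h)
        exact not_adj_of_orders hp hq hpq hoa hob (adj_comm.mp this)
    · intro h z; exact eqv_of_zpowers_eq h z
  rw [Nat.card_congr (Equiv.subtypeEquivRight this), card_gens, hoa, Nat.totient_prime hp]

lemma cls_big {p q : ℕ} (hp : p.Prime) (hq : q.Prime) (hpq : p ≠ q) {g a b : G}
    (hg : orderOf g = p * q) (ha : a ∈ zpowers g) (hb : b ∈ zpowers g)
    (hoa : orderOf a = p) (hob : orderOf b = q) (hnu : ∃ w, ¬ adj w g) :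
    Nat.card {w // ∀ z, adj z w ↔ adj z g} = (p - 1) * (q - 1) := by
  have : ∀ w : G, (∀ z, adj z w ↔ adj z g) ↔ zpowers w = zpowers g := by
    intro w
    constructor
    · intro hz
      obtain ⟨w0, hw0⟩ := hnu
      have hw1 : w ≠ 1 := by
        rintro rfl
        exact hw0 ((hz w0).mp (adj_one w0))
      have hwg : w ∈ zpowers g := by
        by_contra hcon
        have hgw : g ∈ zpowers w := by
          rcases (hz g).mpr (adj_self g) with h | h
          · exact h
          · exact absurd h hcon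
        obtain ⟨z, hzw, hzg⟩ := exists_not_adj_of_root hp hq hpq hg hgw hcon
        exact hzg ((hz z).mp (Or.inl hzw))
      have haw : adj a w := (hz a).mpr (Or.inl ha)
      have hbw : adj b w := (hz b).mpr (Or.inl hb)
      have hpw : p ∣ orderOf w := by
        rcases haw with h | h
        · rw [← hoa]; exact orderOf_dvd_of_mem h
        · have h3 := orderOf_dvd_of_mem h
          rw [hoa] at h3
          rcases (Nat.dvd_prime hp).mp h3 with h4 | h4
          · rw [orderOf_eq_one_iff] at h4; exact absurd h4 hw1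
          · rw [h4]
      have hqw : q ∣ orderOf w := by
        rcases hbw with h | h
        · rw [← hob]; exact orderOf_dvd_of_mem h
        · have h3 := orderOf_dvd_of_mem h
          rw [hob] at h3
          rcases (Nat.dvd_prime hq).mp h3 with h4 | h4
          · rw [orderOf_eq_one_iff] at h4; exact absurd h4 hw1
          · rw [h4]
      have hcop : Nat.Coprime p q := (Nat.coprime_primes hp hq).mpr hpq
      have h5 : p * q ∣ orderOf w := hcop.mul_dvd_of_dvd_of_dvd hpw hqw
      have h6 : orderOf w ∣ p * q := hg ▸ orderOf_dvd_of_mem hwg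
      exact zpowers_eq_of_orderOf_eq hwg (mem_zpowers g) (by rw [hg]; exact Nat.dvd_antisymm h6 h5)
    · intro h z; exact eqv_of_zpowers_eq h z
  have hcop : Nat.Coprime p q := (Nat.coprime_primes hp hq).mpr hpq
  rw [Nat.card_congr (Equiv.subtypeEquivRight this), card_gens, hg, Nat.totient_mul hcop,
    Nat.totient_prime hp, Nat.totient_prime hq]

theorem sideG {p q : ℕ} (hp : p.Prime) (hq : q.Prime) (hpq : p ≠ q) (g : G)
    (hg : orderOf g = p * q) :
    Pq (adj : G → G → Prop) p q ∨ Rq (adj : G → G → Prop) p q := by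
  have hgq : orderOf g = q * p := by rw [hg, mul_comm]
  by_cases hall : ∀ w : G, w ∈ zpowers g
  · right
    refine ⟨?_, 1, g, ?_, fun w => adj_one w, fun w => Or.inl (hall w)⟩
    · rw [← hg]; exact (orderOf_eq_card_of_forall_mem_zpowers hall).symm
    · rintro rfl
      rw [orderOf_one] at hg
      have := hp.two_le; have := hq.two_le
      nlinarith
  · left
    push Not at hall
    obtain ⟨w0, hw0⟩ := hall
    obtain ⟨a, ha, hoa⟩ := exists_mem_zpowers_orderOf g (d := p) (by rw [hg]; exact Dvd.intro _ rfl)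
    obtain ⟨b, hb, hob⟩ := exists_mem_zpowers_orderOf g (d := q) (by rw [hg]; exact Dvd.intro_left _ rfl)
    have hnu : ∃ w, ¬ adj w g := by
      by_cases h : adj w0 g
      · have hgw : g ∈ zpowers w0 := by
          rcases h with h | h
          · exact absurd h hw0
          · exact h
        obtain ⟨z, _, hz⟩ := exists_not_adj_of_root hp hq hpq hg hgw hw0
        exact ⟨z, hz⟩
      · exact ⟨w0, h⟩
    refine ⟨g, a, b, not_adj_of_orders hp hq hpq hoa hob, Or.inr ha, Or.inr hb, hnu,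
      cls_small hp hq hpq hg ha hb hoa hob, cls_small hq hp hpq.symm hgq hb ha hob hoa,
      cls_big hp hq hpq hg ha hb hoa hob hnu, ?_, ?_⟩
    · intro w h1 h2 z
      exact eqv_of_zpowers_eq (sideA hp hq hpq hg ha hb hoa hob w h1 h2) z
    · intro w h1 h2 z
      exact eqv_of_zpowers_eq (sideA hq hp hpq.symm hgq hb ha hob hoa w h1 h2) z

end Cfsg.Agent.Lib.Helper65.PowGraphA
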