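import Cfsg.Agent.Lib.Helper65.PowGraphA

set_option autoImplicit false
set_option linter.unusedSectionVars false
set_option linter.style.haveILetI false
set_option linter.unusedVariables false

namespace Cfsg.Agent.Lib.Helper65.PowGraphB

open Subgroup Cfsg.Agent.Lib.Helper65.PowGraph Cfsg.Agent.Lib.Helper65.PowGraphA

variable {G : Type*} [Group G] [Finite G]

theorem sideH_R {p q : ℕ} (hp : p.Prime) (hq : q.Prime) (hpq : p ≠ q)
    (h : Rq (adj : G → G → Prop) p q) : ∃ g : G, orderOf g = p * q := by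
  obtain ⟨hc, s, s', hss, hs, hs'⟩ := h
  have key : ∀ t : G, t ≠ 1 → (∀ w, adj w t) → orderOf t = p * q := by
    intro t ht hu
    have hdiv : ∀ r : ℕ, r.Prime → r ∣ Nat.card G → r ∣ orderOf t := by
      intro r hr hrd
      haveI := Fact.mk hr
      obtain ⟨w, hw⟩ := exists_prime_orderOf_dvd_card' r hrd
      rcases hu w with h | h
      · rw [← hw]; exact orderOf_dvd_of_mem h
      · have h3 := orderOf_dvd_of_mem h
        rw [hw] at h3
        rcases (Nat.dvd_prime hr).mp h3 with h4 | h4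
        · rw [orderOf_eq_one_iff] at h4; exact absurd h4 ht
        · rw [h4]
    have h1 := hdiv p hp (by rw [hc]; exact Dvd.intro _ rfl)
    have h2 := hdiv q hq (by rw [hc]; exact Dvd.intro_left _ rfl)
    have hcop : Nat.Coprime p q := (Nat.coprime_primes hp hq).mpr hpq
    have h5 : p * q ∣ orderOf t := hcop.mul_dvd_of_dvd_of_dvd h1 h2
    have h6 : orderOf t ∣ p * q := by rw [← hc]; exact orderOf_dvd_natCard t
    exact Nat.dvd_antisymm h6 h5
  by_cases h1 : s = 1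
  · exact ⟨s', key s' (by rintro rfl; exact hss h1) hs'⟩
  · exact ⟨s, key s h1 hs⟩

lemma prime_ne_of_dvd_pow {ℓ r k : ℕ} (hℓ : ℓ.Prime) (hr : r.Prime) (h : r ∣ ℓ ^ k) : r = ℓ :=
  (Nat.prime_dvd_prime_iff_eq hr hℓ).mp (hr.dvd_of_dvd_pow h)

/-- step 1 of case (1): the order of `u` is a prime power -/
lemma prime_pow_order {x u v : G} (hux : u ∈ zpowers x) (hvx : v ∈ zpowers x) (h1 : ¬ adj u v)
    (h8 : ∀ w, adj w x → ¬ adj w v → ∀ z, adj z w ↔ adj z u) :
    ∃ ℓ : ℕ, ℓ.Prime ∧ ∃ c, 0 < c ∧ orderOf u = ℓ ^ c := by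
  have hndvd : ¬ orderOf u ∣ orderOf v := fun h => h1 (Or.inl (mem_zpowers_of_dvd hux hvx h))
  rw [Nat.dvd_iff_prime_pow_dvd_dvd] at hndvd
  push Not at hndvd
  obtain ⟨ℓ, k, hℓ, hk1, hk2⟩ := hndvd
  have hk0 : k ≠ 0 := by rintro rfl; simp at hk2
  have hℓm : ℓ ∣ orderOf u := Dvd.dvd.trans (dvd_pow_self ℓ hk0) hk1
  obtain ⟨w, hwu, how⟩ := exists_mem_zpowers_orderOf u hk1
  have hle : zpowers u ≤ zpowers x := zpowers_le.mpr hux
  have hwx : w ∈ zpowers x := hle hwu
  have hwv : ¬ adj w v := by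
    rintro (h | h)
    · exact hk2 (how ▸ orderOf_dvd_of_mem h)
    · apply h1
      refine Or.inr (mem_zpowers_of_dvd hvx hux ?_)
      exact Dvd.dvd.trans (how ▸ orderOf_dvd_of_mem h) hk1
  have heq := h8 w (Or.inl hwx) hwv
  have huniq : ∀ {r : ℕ}, r.Prime → r ∣ orderOf u → r = ℓ := by
    intro r hr hrd
    by_contra hne
    obtain ⟨ur, hur, hour⟩ := exists_mem_zpowers_orderOf u hrd
    rcases (heq ur).mpr (Or.inl hur) with h | h
    · have := orderOf_dvd_of_mem h
      rw [hour, how] at this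
      exact hne (prime_ne_of_dvd_pow hℓ hr this)
    · have := orderOf_dvd_of_mem h
      rw [hour, how] at this
      have h2 : ℓ ∣ r := Dvd.dvd.trans (dvd_pow_self ℓ hk0) this
      exact hne ((Nat.prime_dvd_prime_iff_eq hℓ hr).mp h2).symm
  have hpos : orderOf u ≠ 0 := (orderOf_pos u).ne'
  have hform := Nat.eq_prime_pow_of_unique_prime_dvd hpos huniq
  refine ⟨ℓ, hℓ, (orderOf u).primeFactorsList.length, ?_, hform⟩
  by_contra hc
  have : (orderOf u).primeFactorsList.length = 0 := by omega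
  rw [this, pow_zero] at hform
  rw [hform] at hℓm
  exact hℓ.one_lt.ne' (Nat.dvd_one.mp hℓm)

/-- step 2 of case (1): the exponent is one -/
lemma prime_order {x u v : G} (hux : u ∈ zpowers x) (hvx : v ∈ zpowers x) (h1 : ¬ adj u v)
    (h8 : ∀ w, adj w x → ¬ adj w v → ∀ z, adj z w ↔ adj z u)
    {ℓ ℓ' c c' : ℕ} (hℓ : ℓ.Prime) (hℓ' : ℓ'.Prime) (hc : 0 < c) (hc' : 0 < c')
    (hou : orderOf u = ℓ ^ c) (hov : orderOf v = ℓ' ^ c') : ℓ ≠ ℓ' ∧ c = 1 := by
  have hne : ℓ ≠ ℓ' := by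
    rintro rfl
    rcases le_total c c' with h | h
    · exact h1 (Or.inl (mem_zpowers_of_dvd hux hvx (by rw [hou, hov]; exact pow_dvd_pow ℓ h)))
    · exact h1 (Or.inr (mem_zpowers_of_dvd hvx hux (by rw [hou, hov]; exact pow_dvd_pow ℓ h)))
  refine ⟨hne, ?_⟩
  by_contra hc1
  have hc2 : 2 ≤ c := by omega
  have hℓu : ℓ ∣ orderOf u := by rw [hou]; exact dvd_pow_self ℓ (by omega)
  have hℓv : ℓ' ∣ orderOf v := by rw [hov]; exact dvd_pow_self ℓ' (by omega)
  obtain ⟨w1, hw1u, how1⟩ := exists_mem_zpowers_orderOf u hℓu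
  have hle : zpowers u ≤ zpowers x := zpowers_le.mpr hux
  have hw1x : w1 ∈ zpowers x := hle hw1u
  have hcop : Nat.Coprime ℓ ℓ' := (Nat.coprime_primes hℓ hℓ').mpr hne
  have hdx : ℓ * ℓ' ∣ orderOf x :=
    hcop.mul_dvd_of_dvd_of_dvd (hℓu.trans (orderOf_dvd_of_mem hux))
      (hℓv.trans (orderOf_dvd_of_mem hvx))
  obtain ⟨y, hyx, hoy⟩ := exists_mem_zpowers_orderOf x hdx
  have hw1v : ¬ adj w1 v := by
    rintro (h | h)
    · have := orderOf_dvd_of_mem h
      rw [how1, hov] at this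
      exact hne (prime_ne_of_dvd_pow hℓ' hℓ this)
    · have := orderOf_dvd_of_mem h
      rw [how1, hov] at this
      have h2 : ℓ' ∣ ℓ := Dvd.dvd.trans (dvd_pow_self ℓ' (by omega)) this
      exact hne ((Nat.prime_dvd_prime_iff_eq hℓ' hℓ).mp h2).symm
  have heq := h8 w1 (Or.inl hw1x) hw1v
  have hyw1 : adj y w1 := Or.inr (mem_zpowers_of_dvd hw1x hyx (by rw [how1, hoy]; exact Dvd.intro _ rfl))
  rcases (heq y).mp hyw1 with h | h
  · have := orderOf_dvd_of_mem h
    rw [hoy, hou] at this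
    have h2 : ℓ' ∣ ℓ ^ c := Dvd.dvd.trans (Dvd.intro_left _ rfl) this
    exact hne (prime_ne_of_dvd_pow hℓ hℓ' h2).symm
  · have := orderOf_dvd_of_mem h
    rw [hoy, hou] at this
    have h2 : ℓ * ℓ ∣ ℓ * ℓ' := by
      refine Dvd.dvd.trans ?_ this
      have : ℓ ^ 2 ∣ ℓ ^ c := pow_dvd_pow ℓ hc2
      rwa [pow_two] at this
    have h3 : ℓ ∣ ℓ' := (Nat.mul_dvd_mul_iff_left hℓ.pos).mp h2
    exact hne ((Nat.prime_dvd_prime_iff_eq hℓ hℓ').mp h3)

/-- step 3 of case (1): the class of `u` is the set of generators -/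
lemma cls_eq_gens {x u v : G} (hux : u ∈ zpowers x) (hvx : v ∈ zpowers x) (h1 : ¬ adj u v)
    {ℓ ℓ' : ℕ} (hℓ : ℓ.Prime) (hℓ' : ℓ'.Prime) (hne : ℓ ≠ ℓ')
    (hou : orderOf u = ℓ) (hov : orderOf v = ℓ') :
    Nat.card {w // ∀ z, adj z w ↔ adj z u} = ℓ - 1 := by
  have : ∀ w : G, (∀ z, adj z w ↔ adj z u) ↔ zpowers w = zpowers u := by
    intro z
    constructor
    · intro hz
      have hvz : ¬ adj v z := fun h => h1 (adj_comm.mp ((hz v).mp h))
      have hzx : z ∈ zpowers x := by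
        rcases (hz x).mpr (Or.inr hux) with h | h
        · exfalso; exact hvz (Or.inl (zpowers_le.mpr h hvx))
        · exact h
      have hz1 : z ≠ 1 := by
        rintro rfl; exact hvz (adj_one v)
      have hℓz : ℓ ∣ orderOf z := by
        rcases (hz u).mpr (adj_self u) with h | h
        · rw [← hou]; exact orderOf_dvd_of_mem h
        · have h3 := orderOf_dvd_of_mem h
          rw [hou] at h3
          rcases (Nat.dvd_prime hℓ).mp h3 with h4 | h4
          · rw [orderOf_eq_one_iff] at h4; exact absurd h4 hz1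
          · rw [h4]
      have hℓ'z : ¬ ℓ' ∣ orderOf z := fun h =>
        hvz (Or.inl (mem_zpowers_of_dvd hvx hzx (by rw [hov]; exact h)))
      have hcop : Nat.Coprime ℓ ℓ' := (Nat.coprime_primes hℓ hℓ').mpr hne
      have hdx : ℓ * ℓ' ∣ orderOf x :=
        hcop.mul_dvd_of_dvd_of_dvd (hou ▸ orderOf_dvd_of_mem hux) (hov ▸ orderOf_dvd_of_mem hvx)
      have hoz : orderOf z = ℓ := by
        obtain ⟨t, ht⟩ := hℓz
        by_contra hcon
        have ht1 : t ≠ 1 := by rintro rfl; rw [mul_one] at ht; exact hcon ht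
        set r := t.minFac with hr
        have hrp : r.Prime := Nat.minFac_prime ht1
        have hrt : r ∣ t := Nat.minFac_dvd t
        have hrz : r ∣ orderOf z := by rw [ht]; exact Dvd.dvd.mul_left hrt _
        by_cases hrℓ : r = ℓ
        · obtain ⟨y, hyx, hoy⟩ := exists_mem_zpowers_orderOf x hdx
          have hyu : adj y u := Or.inr (mem_zpowers_of_dvd hux hyx (by rw [hou, hoy]; exact Dvd.intro _ rfl))
          rcases (hz y).mpr hyu with h | h
          · have := orderOf_dvd_of_mem h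
            rw [hoy] at this
            exact hℓ'z (Dvd.dvd.trans (Dvd.intro_left _ rfl) this)
          · have := orderOf_dvd_of_mem h
            rw [hoy, ht] at this
            have h2 : ℓ * ℓ ∣ ℓ * ℓ' := by
              refine Dvd.dvd.trans ?_ this
              exact Nat.mul_dvd_mul_left ℓ (hrℓ ▸ hrt)
            have h3 : ℓ ∣ ℓ' := (Nat.mul_dvd_mul_iff_left hℓ.pos).mp h2
            exact hne ((Nat.prime_dvd_prime_iff_eq hℓ hℓ').mp h3)
        · obtain ⟨z', hz'z, hoz'⟩ := exists_mem_zpowers_orderOf z hrz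
          rcases (hz z').mp (Or.inl hz'z) with h | h
          · have := orderOf_dvd_of_mem h
            rw [hoz', hou] at this
            exact hrℓ ((Nat.prime_dvd_prime_iff_eq hrp hℓ).mp this)
          · have := orderOf_dvd_of_mem h
            rw [hoz', hou] at this
            exact hrℓ ((Nat.prime_dvd_prime_iff_eq hℓ hrp).mp this).symm
      exact zpowers_eq_of_orderOf_eq hzx hux (by rw [hoz, hou])
    · intro h z; exact eqv_of_zpowers_eq h z
  rw [Nat.card_congr (Equiv.subtypeEquivRight this), card_gens, hou, Nat.totient_prime hℓ]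

lemma commute_of_mem_zpowers {x u v : G} (hux : u ∈ zpowers x) (hvx : v ∈ zpowers x) :
    Commute u v := by
  obtain ⟨i, rfl⟩ := hux
  obtain ⟨j, rfl⟩ := hvx
  exact (Commute.refl x).zpow_zpow i j

theorem sideH_P1 {p q : ℕ} (hp : p.Prime) (hq : q.Prime) (hpq : p ≠ q) {x u v : G}
    (hux : u ∈ zpowers x) (hvx : v ∈ zpowers x) (h1 : ¬ adj u v)
    (h5 : Nat.card {w // ∀ z, adj z w ↔ adj z u} = p - 1)
    (h6 : Nat.card {w // ∀ z, adj z w ↔ adj z v} = q - 1)
    (h8 : ∀ w, adj w x → ¬ adj w v → ∀ z, adj z w ↔ adj z u)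
    (h9 : ∀ w, adj w x → ¬ adj w u → ∀ z, adj z w ↔ adj z v) :
    ∃ g : G, orderOf g = p * q := by
  have h1' : ¬ adj v u := fun h => h1 (adj_comm.mp h)
  obtain ⟨ℓ, hℓ, c, hc, hou⟩ := prime_pow_order hux hvx h1 h8
  obtain ⟨ℓ', hℓ', c', hc', hov⟩ := prime_pow_order hvx hux h1' h9
  obtain ⟨hne, rfl⟩ := prime_order hux hvx h1 h8 hℓ hℓ' hc hc' hou hov
  obtain ⟨-, rfl⟩ := prime_order hvx hux h1' h9 hℓ' hℓ hc' hc hov hou
  rw [pow_one] at hou hov
  have e1 := cls_eq_gens hux hvx h1 hℓ hℓ' hne hou hov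
  have e2 := cls_eq_gens hvx hux h1' hℓ' hℓ hne.symm hov hou
  have hℓp : ℓ = p := by
    have := hℓ.two_le; have := hp.two_le; omega
  have hℓq : ℓ' = q := by
    have := hℓ'.two_le; have := hq.two_le; omega
  subst hℓp hℓq
  refine ⟨u * v, ?_⟩
  have hcop : Nat.Coprime (orderOf u) (orderOf v) := by
    rw [hou, hov]; exact (Nat.coprime_primes hℓ hℓ').mpr hne
  rw [(commute_of_mem_zpowers hux hvx).orderOf_mul_eq_mul_orderOf_of_coprime hcop, hou, hov]

end Cfsg.Agent.Lib.Helper65.PowGraphB
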