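import Cfsg.Agent.Lib.Helper65.PowGraphB

set_option autoImplicit false
set_option linter.unusedSectionVars false
set_option linter.style.haveILetI false
set_option linter.unusedVariables false

namespace Cfsg.Agent.Lib.Helper65.PowGraphC

open Subgroup Cfsg.Agent.Lib.Helper65.PowGraph Cfsg.Agent.Lib.Helper65.PowGraphA
  Cfsg.Agent.Lib.Helper65.PowGraphB

variable {G : Type*} [Group G] [Finite G]

/-- case (2): the class of `x` lies inside `zpowers u` -/
lemma cls_sub {x u v w : G} (hxu : x ∈ zpowers u) (hxv : x ∈ zpowers v) (h1 : ¬ adj u v)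
    (hx1 : x ≠ 1) (hz : ∀ z, adj z w ↔ adj z x) : w ∈ zpowers u := by
  by_contra hcon
  have huw : u ∈ zpowers w := by
    rcases (hz u).mpr (Or.inr hxu) with h | h
    · exact h
    · exact absurd h hcon
  have hvw : v ∈ zpowers w := by
    rcases (hz v).mpr (Or.inr hxv) with h | h
    · exact h
    · exfalso; exact h1 (Or.inl (zpowers_le.mpr h huw))
  have hj1 : orderOf x ∣ orderOf u := orderOf_dvd_of_mem hxu
  have hj2 : orderOf x ∣ orderOf v := orderOf_dvd_of_mem hxv
  have hjne : orderOf x ≠ 1 := by rw [Ne, orderOf_eq_one_iff]; exact hx1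
  -- a general extraction
  have ext : ∀ a b : G, a ∈ zpowers w → b ∈ zpowers w → ¬ adj a b → x ∈ zpowers b →
      ∃ ℓ k : ℕ, ℓ.Prime ∧ ℓ ^ k ∣ orderOf a ∧ ¬ ℓ ^ k ∣ orderOf b ∧ orderOf x ∣ ℓ ^ k := by
    intro a b ha hb hab hxb
    have hndvd : ¬ orderOf a ∣ orderOf b := fun h => hab (Or.inl (mem_zpowers_of_dvd ha hb h))
    rw [Nat.dvd_iff_prime_pow_dvd_dvd] at hndvd
    push Not at hndvd
    obtain ⟨ℓ, k, hℓ, hk1, hk2⟩ := hndvd
    refine ⟨ℓ, k, hℓ, hk1, hk2, ?_⟩
    obtain ⟨y, hya, hoy⟩ := exists_mem_zpowers_orderOf a hk1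
    have hyw : y ∈ zpowers w := (zpowers_le.mpr ha) hya
    rcases (hz y).mp (Or.inl hyw) with h | h
    · exfalso
      apply hk2
      have := orderOf_dvd_of_mem h
      rw [hoy] at this
      exact this.trans (orderOf_dvd_of_mem hxb)
    · rw [← hoy]; exact orderOf_dvd_of_mem h
  obtain ⟨ℓ, k, hℓ, hk1, hk2, hk3⟩ := ext u v huw hvw h1 hxv
  obtain ⟨ℓ', k', hℓ', hk1', hk2', hk3'⟩ := ext v u hvw huw (fun h => h1 (adj_comm.mp h)) hxu
  obtain ⟨r, hr, hrd⟩ := Nat.exists_prime_and_dvd hjne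
  have e1 : r = ℓ := prime_ne_of_dvd_pow hℓ hr (hrd.trans hk3)
  have e2 : r = ℓ' := prime_ne_of_dvd_pow hℓ' hr (hrd.trans hk3')
  subst e1
  subst e2
  rcases le_total k k' with h | h
  · exact hk2 ((pow_dvd_pow r h).trans hk1')
  · exact hk2' ((pow_dvd_pow r h).trans hk1)

lemma two_mul_card_le {u v : G} (h1 : ¬ adj u v) :
    2 * Nat.card (zpowers u ⊓ zpowers v : Subgroup G) ≤ orderOf u := by
  have hle : zpowers u ⊓ zpowers v ≤ zpowers u := inf_le_left
  have hdvd : Nat.card (zpowers u ⊓ zpowers v : Subgroup G) ∣ Nat.card (zpowers u) :=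
    Subgroup.card_dvd_of_le hle
  rw [Nat.card_zpowers] at hdvd
  obtain ⟨c, hc⟩ := hdvd
  have hpos : 0 < orderOf u := orderOf_pos u
  have hc0 : c ≠ 0 := by rintro rfl; rw [mul_zero] at hc; omega
  have hc1 : c ≠ 1 := by
    rintro rfl
    rw [mul_one] at hc
    have : zpowers u ⊓ zpowers v = zpowers u := by
      apply Subgroup.eq_of_le_of_card_ge hle
      rw [Nat.card_zpowers, hc]
    apply h1
    left
    have hu : u ∈ zpowers u ⊓ zpowers v := by rw [this]; exact mem_zpowers u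
    exact hu.2
  have : 2 ≤ c := by omega
  rw [hc]
  calc 2 * Nat.card (zpowers u ⊓ zpowers v : Subgroup G)
      = Nat.card (zpowers u ⊓ zpowers v : Subgroup G) * 2 := by ring
    _ ≤ Nat.card (zpowers u ⊓ zpowers v : Subgroup G) * c := Nat.mul_le_mul_left _ this

lemma totient_le_cls (u : G) :
    Nat.totient (orderOf u) ≤ Nat.card {w // ∀ z, adj z w ↔ adj z u} := by
  rw [← card_gens u]
  exact Nat.card_le_card_of_injective
    (fun w : {w // zpowers w = zpowers u} =>
      (⟨w.1, fun z => eqv_of_zpowers_eq w.2 z⟩ : {w // ∀ z, adj z w ↔ adj z u}))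
    (by
      intro a b h
      have := congrArg Subtype.val h
      exact Subtype.ext this)

theorem sideH_P2 {p q : ℕ} {x u v : G}
    (hxu : x ∈ zpowers u) (hxv : x ∈ zpowers v) (h1 : ¬ adj u v) (h4 : ∃ w, ¬ adj w x)
    (h5 : Nat.card {w // ∀ z, adj z w ↔ adj z u} = p - 1)
    (h6 : Nat.card {w // ∀ z, adj z w ↔ adj z v} = q - 1)
    (h7 : Nat.card {w // ∀ z, adj z w ↔ adj z x} = (p - 1) * (q - 1)) : False := by
  obtain ⟨w0, hw0⟩ := h4
  have hx1 : x ≠ 1 := by rintro rfl; exact hw0 (adj_one w0)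
  have h1' : ¬ adj v u := fun h => h1 (adj_comm.mp h)
  set I : Subgroup G := zpowers u ⊓ zpowers v with hI
  have hsub : {w : G | ∀ z, adj z w ↔ adj z x} ⊆ (I : Set G) \ {1} := by
    intro w hw
    refine ⟨⟨cls_sub hxu hxv h1 hx1 hw, cls_sub hxv hxu h1' hx1 hw⟩, ?_⟩
    rintro rfl
    exact hw0 ((hw w0).mp (adj_one w0))
  have hc1 : Nat.card {w // ∀ z, adj z w ↔ adj z x} ≤ Nat.card I - 1 := by
    have e1 : Nat.card {w // ∀ z, adj z w ↔ adj z x} = {w : G | ∀ z, adj z w ↔ adj z x}.ncard :=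
      Nat.card_coe_set_eq _
    have e2 : Nat.card I = (I : Set G).ncard := Nat.card_coe_set_eq _
    rw [e1, e2, ← Set.ncard_sdiff_singleton_of_mem (show (1 : G) ∈ (I : Set G) from I.one_mem)]
    exact Set.ncard_le_ncard hsub (Set.toFinite _)
  have hi : 0 < Nat.card I := Nat.card_pos
  have a1 : 2 * Nat.card I ≤ orderOf u := two_mul_card_le h1
  have hI' : zpowers v ⊓ zpowers u = I := inf_comm _ _
  have a2 : 2 * Nat.card I ≤ orderOf v := by
    have := two_mul_card_le h1'
    rw [hI'] at this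
    exact this
  have b1 := le_two_mul_totient_sq (orderOf u) (orderOf_pos u)
  have b2 := le_two_mul_totient_sq (orderOf v) (orderOf_pos v)
  have c1 := totient_le_cls u
  have c2 := totient_le_cls v
  rw [h5] at c1
  rw [h6] at c2
  rw [h7] at hc1
  have d1 : Nat.card I ≤ (orderOf u).totient ^ 2 := by omega
  have d2 : Nat.card I ≤ (orderOf v).totient ^ 2 := by omega
  have d3 : Nat.card I ≤ (orderOf u).totient * (orderOf v).totient := by
    by_contra hcon
    push Not at hcon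
    have h2 := Nat.mul_le_mul d1 d2
    have h3 := Nat.mul_self_lt_mul_self hcon
    have h4 : (orderOf u).totient ^ 2 * (orderOf v).totient ^ 2 =
        (orderOf u).totient * (orderOf v).totient * ((orderOf u).totient * (orderOf v).totient) := by
      ring
    rw [h4] at h2
    omega
  have d4 : (orderOf u).totient * (orderOf v).totient ≤ (p - 1) * (q - 1) :=
    Nat.mul_le_mul c1 c2
  omega

theorem sideH {p q : ℕ} (hp : p.Prime) (hq : q.Prime) (hpq : p ≠ q)
    (h : Pq (adj : G → G → Prop) p q ∨ Rq (adj : G → G → Prop) p q) :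
    ∃ g : G, orderOf g = p * q := by
  rcases h with h | h
  · obtain ⟨x, u, v, h1, h2, h3, h4, h5, h6, h7, h8, h9⟩ := h
    rcases h2 with h2 | h2
    · rcases h3 with h3 | h3
      · exact (sideH_P2 h2 h3 h1 h4 h5 h6 h7).elim
      · exfalso; exact h1 (Or.inr (zpowers_le.mpr h2 h3))
    · rcases h3 with h3 | h3
      · exfalso; exact h1 (Or.inl (zpowers_le.mpr h3 h2))
      · exact sideH_P1 hp hq hpq h2 h3 h1 h5 h6 h8 h9
  · exact sideH_R hp hq hpq h

/-- main theorem: transfer along an isomorphism of power graphs -/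
theorem main {G H : Type*} [Group G] [Finite G] [Group H] [Finite H] (e : G ≃ H)
    (he : ∀ x y : G, adj x y ↔ adj (e x) (e y))
    {p q : ℕ} (hp : p.Prime) (hq : q.Prime) (hpq : p ≠ q) :
    (∃ g : G, orderOf g = p * q) → (∃ h : H, orderOf h = p * q) := by
  rintro ⟨g, hg⟩
  apply sideH hp hq hpq
  rcases sideG hp hq hpq g hg with h | h
  · exact Or.inl (Pq_congr adj adj e he h)
  · exact Or.inr (Rq_congr adj adj e he h)

end Cfsg.Agent.Lib.Helper65.PowGraphC
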