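import Mathlib
import Cfsg.Agent.Lib.Helper42.ReeDegStmt

/-!
S2343 piece ORB: the `q(q-1)` elements `x_c h` (`c ∈ U/A`, `h ∈ H`) move any character of `A`
nontrivial on `Z` to pairwise distinct characters.
-/

set_option autoImplicit false

namespace Cfsg.Agent.Lib.Helper65.ReeDegORB

open Cfsg.Agent.Lib.Helper42.ReeDegStmt

universe u

/-- If `μ` is multiplicative and nonzero on `B`, invariant under conjugation by `y`, and the
commutators `[y, a]`, `a ∈ B`, fill `Z`, then `μ = 1` on `Z`. -/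
theorem key {G : Type u} [Group G] (B Z : Subgroup G) (μ : G → ℂ)
    (hmul : ∀ a ∈ B, ∀ b ∈ B, μ (a * b) = μ a * μ b) (hne : ∀ a ∈ B, μ a ≠ 0) (y : G)
    (hyB : ∀ a ∈ B, y * a * y⁻¹ ∈ B)
    (hsurj : ∀ z ∈ Z, ∃ a ∈ B, y * a * y⁻¹ * a⁻¹ = z)
    (hinv : ∀ a ∈ B, μ (y * a * y⁻¹) = μ a) : ∀ z ∈ Z, μ z = 1 := by
  intro z hz
  obtain ⟨a, ha, rfl⟩ := hsurj z hz
  have h1 : μ 1 = 1 := by
    have h2 := hmul 1 B.one_mem 1 B.one_mem
    rw [mul_one] at h2
    have h0 := hne 1 B.one_mem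
    have h3 : μ 1 * (μ 1 - 1) = 0 := by rw [mul_sub, mul_one, ← h2, sub_self]
    rcases mul_eq_zero.1 h3 with h | h
    · exact absurd h h0
    · exact sub_eq_zero.1 h
  rw [hmul _ (hyB a ha) _ (B.inv_mem ha), hinv a ha, ← hmul a ha _ (B.inv_mem ha),
    mul_inv_cancel, h1]

/-- [ORB] -/
theorem main : Cfsg.Agent.Lib.Helper42.ReeDegStmt.OrbP.{u} := by
  intro G _ _ Z A U H t q uf hf
  classical
  have hAU := uf.AU
  have hcardq : Nat.card (↥U ⧸ A.subgroupOf U) = q := by
    have h1 : (A.subgroupOf U).index * Nat.card (A.subgroupOf U) = Nat.card U :=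
      Subgroup.index_mul_card _
    have h2 : Nat.card (A.subgroupOf U) = Nat.card A :=
      Nat.card_congr (Subgroup.subgroupOfEquivOfLe hAU).toEquiv
    rw [h2, uf.cardU] at h1
    have hpos : 0 < Nat.card A := Nat.card_pos
    rw [← Subgroup.index_eq_card]
    exact Nat.eq_of_mul_eq_mul_right hpos h1
  have hcardI : Nat.card ((↥U ⧸ A.subgroupOf U) × ↥H) = q * (q - 1) := by
    rw [Nat.card_prod, hcardq, hf.cardH]
  let e : Fin (q * (q - 1)) ≃ (↥U ⧸ A.subgroupOf U) × ↥H :=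
    (Finite.equivFinOfCardEq hcardI).symm
  let xr : Fin (q * (q - 1)) → G := fun j => ((Quotient.out (e j).1 : ↥U) : G)
  let hr : Fin (q * (q - 1)) → G := fun j => ((e j).2 : G)
  have hxU : ∀ j, xr j ∈ U := fun j => (Quotient.out (e j).1 : ↥U).2
  have hhH : ∀ j, hr j ∈ H := fun j => (e j).2.2
  have hZconj : ∀ j, ∀ z ∈ Z, (xr j * hr j)⁻¹ * z * (xr j * hr j) = (hr j)⁻¹ * z * hr j := by
    intro j z hz
    have h1 := uf.centZ (xr j)⁻¹ (U.inv_mem (hxU j)) z hz
    calc (xr j * hr j)⁻¹ * z * (xr j * hr j)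
        = (hr j)⁻¹ * ((xr j)⁻¹ * z * ((xr j)⁻¹)⁻¹) * hr j := by group
      _ = (hr j)⁻¹ * z * hr j := by rw [h1]
  have hHinvA : ∀ h ∈ H, ∀ a ∈ A, h⁻¹ * a * h ∈ A := by
    intro h hh a ha
    have := hf.normHA h⁻¹ (H.inv_mem hh) a ha
    rwa [inv_inv] at this
  have hHinvZ : ∀ h ∈ H, ∀ z ∈ Z, h⁻¹ * z * h ∈ Z := by
    intro h hh z hz
    have := hf.normHZ h⁻¹ (H.inv_mem hh) z hz
    rwa [inv_inv] at this
  refine ⟨fun j => xr j * hr j, ?_, ?_, ?_⟩
  · intro j a ha
    constructor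
    · have h1 := uf.normU (xr j)⁻¹ (U.inv_mem (hxU j)) a ha
      have h2 := hHinvA (hr j) (hhH j) _ h1
      have e1 : (xr j * hr j)⁻¹ * a * (xr j * hr j)
          = (hr j)⁻¹ * ((xr j)⁻¹ * a * ((xr j)⁻¹)⁻¹) * hr j := by group
      rw [e1]; exact h2
    · have h1 := hf.normHA (hr j) (hhH j) a ha
      have h2 := uf.normU (xr j) (hxU j) _ h1
      have e1 : xr j * hr j * a * (xr j * hr j)⁻¹
          = xr j * (hr j * a * (hr j)⁻¹) * (xr j)⁻¹ := by group
      rw [e1]; exact h2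
  · intro j z hz
    constructor
    · rw [hZconj j z hz]
      exact hHinvZ (hr j) (hhH j) z hz
    · have h1 := hf.normHZ (hr j) (hhH j) z hz
      have h2 := uf.centZ (xr j) (hxU j) _ h1
      have e1 : xr j * hr j * z * (xr j * hr j)⁻¹
          = xr j * (hr j * z * (hr j)⁻¹) * (xr j)⁻¹ := by group
      rw [e1, h2]; exact h1
  · intro μ hmul hne hz₀ i j hij
    obtain ⟨z₀, hz₀, hμz₀⟩ := hz₀
    by_contra hcon
    have hcon' : ∀ a ∈ A, μ ((xr i * hr i)⁻¹ * a * (xr i * hr i))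
        = μ ((xr j * hr j)⁻¹ * a * (xr j * hr j)) := by
      intro a ha
      by_contra hne'
      exact hcon ⟨a, ha, hne'⟩
    by_cases hh : hr i = hr j
    · -- same torus element, different cosets
      have hcos : (e i).1 ≠ (e j).1 := by
        intro h1
        have h2 : (e i).2 = (e j).2 := Subtype.ext hh
        exact hij (e.injective (Prod.ext h1 h2))
      set h := hr i with hh0
      have hhH' : h ∈ H := hhH i
      set y := (xr j)⁻¹ * xr i with hy
      have hyU : y ∈ U := U.mul_mem (U.inv_mem (hxU j)) (hxU i)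
      have hyA : y ∉ A := by
        intro hyA
        have h1 : (Quotient.out (e j).1 : ↥U)⁻¹ * (Quotient.out (e i).1 : ↥U) ∈ A.subgroupOf U := by
          rw [Subgroup.mem_subgroupOf]
          exact hyA
        have h2 := QuotientGroup.eq.2 h1
        rw [QuotientGroup.out_eq', QuotientGroup.out_eq'] at h2
        exact hcos h2.symm
      have hν : ∀ z ∈ Z, μ (h⁻¹ * z * h) = 1 := by
        refine key A Z (fun a => μ (h⁻¹ * a * h)) ?_ ?_ y (uf.normU y hyU) (uf.stabU y hyU hyA) ?_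
        · intro a ha b hb
          have e1 : h⁻¹ * (a * b) * h = (h⁻¹ * a * h) * (h⁻¹ * b * h) := by group
          show μ (h⁻¹ * (a * b) * h) = μ (h⁻¹ * a * h) * μ (h⁻¹ * b * h)
          rw [e1]
          exact hmul _ (hHinvA h hhH' a ha) _ (hHinvA h hhH' b hb)
        · intro a ha
          exact hne _ (hHinvA h hhH' a ha)
        · intro a ha
          show μ (h⁻¹ * (y * a * y⁻¹) * h) = μ (h⁻¹ * a * h)
          have ha1 : xr i * a * (xr i)⁻¹ ∈ A := uf.normU _ (hxU i) a ha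
          have h1 := hcon' _ ha1
          have e1 : (xr i * h)⁻¹ * (xr i * a * (xr i)⁻¹) * (xr i * h) = h⁻¹ * a * h := by
            group
          have e2 : (xr j * hr j)⁻¹ * (xr i * a * (xr i)⁻¹) * (xr j * hr j)
              = h⁻¹ * (y * a * y⁻¹) * h := by
            rw [← hh, hy]; group
          rw [e1, e2] at h1
          exact h1.symm
      have hz' : h * z₀ * h⁻¹ ∈ Z := hf.normHZ h hhH' z₀ hz₀
      have h1 := hν _ hz'
      have e1 : h⁻¹ * (h * z₀ * h⁻¹) * h = z₀ := by group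
      rw [e1] at h1
      exact hμz₀ h1
    · -- different torus elements
      have heq : ∀ z ∈ Z, μ ((hr i)⁻¹ * z * hr i) = μ ((hr j)⁻¹ * z * hr j) := by
        intro z hz
        have h1 := hcon' z (uf.ZA hz)
        rwa [hZconj i z hz, hZconj j z hz] at h1
      set k := (hr j)⁻¹ * hr i with hk
      have hkH : k ∈ H := H.mul_mem (H.inv_mem (hhH j)) (hhH i)
      have hk1 : k ≠ 1 := by
        intro h1
        rw [hk, inv_mul_eq_one] at h1
        exact hh h1.symm
      have h1 : μ z₀ = 1 := by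
        refine key Z Z μ (fun a ha b hb => hmul a (uf.ZA ha) b (uf.ZA hb))
          (fun a ha => hne a (uf.ZA ha)) k (hf.normHZ k hkH) (hf.stabH k hkH hk1) ?_ z₀ hz₀
        intro w hw
        have hw' : hr i * w * (hr i)⁻¹ ∈ Z := hf.normHZ _ (hhH i) w hw
        have h2 := heq _ hw'
        have e1 : (hr i)⁻¹ * (hr i * w * (hr i)⁻¹) * hr i = w := by group
        have e2 : (hr j)⁻¹ * (hr i * w * (hr i)⁻¹) * hr j = k * w * k⁻¹ := by
          rw [hk]; group
        rw [e1, e2] at h2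
        exact h2.symm
      exact hμz₀ h1

end Cfsg.Agent.Lib.Helper65.ReeDegORB
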