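import Mathlib
import Cfsg.Agent.Lib.Helper42.ReeDegStmt

/-!
S2343 piece TRZ: a basis of simultaneous eigenvectors of `A` all of whose characters are moved
by `g` forces `trace (ρ g) = 0`.
-/

set_option autoImplicit false

namespace Cfsg.Agent.Lib.Helper65.ReeDegTRZ

open Cfsg.Agent.Lib.Helper42.ReeDegStmt

universe u

/-- [TRZ] -/
theorem main : Cfsg.Agent.Lib.Helper42.ReeDegStmt.TrzP.{u} := by
  intro G _ A k ρ μ w hw heig g hnorm hmove
  classical
  rcases Nat.eq_zero_or_pos k with hk | hk
  · subst hk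
    have h0 : ρ g = 0 := by
      apply LinearMap.ext
      intro v
      exact Subsingleton.elim _ _
    rw [h0, map_zero]
  haveI : Nonempty (Fin k) := ⟨⟨0, hk⟩⟩
  have hcard : Fintype.card (Fin k) = Module.finrank ℂ (Fin k → ℂ) := by
    rw [Module.finrank_fin_fun, Fintype.card_fin]
  set b := basisOfLinearIndependentOfCardEqFinrank hw hcard with hb
  have hbw : ∀ j, b j = w j := by
    intro j
    rw [hb, coe_basisOfLinearIndependentOfCardEqFinrank]
  rw [LinearMap.trace_eq_matrix_trace ℂ b, Matrix.trace]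
  refine Finset.sum_eq_zero fun j _ => ?_
  rw [Matrix.diag_apply, LinearMap.toMatrix_apply]
  obtain ⟨a, ha, hne⟩ := hmove j
  -- `ρ a` is diagonal in the basis
  have hdiag : (b.coord j) ∘ₗ (ρ a) = (μ j a) • (b.coord j) := by
    apply b.ext
    intro i
    rw [LinearMap.comp_apply, LinearMap.smul_apply, hbw i, heig i a ha, map_smul, ← hbw i,
      Module.Basis.coord_apply, Module.Basis.repr_self, Finsupp.single_apply]
    by_cases hij : i = j
    · subst hij; simp
    · simp [hij]
  set v := ρ g (b j) with hv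
  have h1 : b.repr (ρ a v) j = μ j a * b.repr v j := by
    have := congrArg (fun L : (Fin k → ℂ) →ₗ[ℂ] ℂ => L v) hdiag
    simpa [Module.Basis.coord_apply] using this
  have h2 : ρ a v = μ j (g⁻¹ * a * g) • v := by
    have e : a * g = g * (g⁻¹ * a * g) := by group
    have h3 : ρ a v = ρ (a * g) (b j) := by
      rw [hv, map_mul]; rfl
    rw [h3, e, map_mul, Module.End.mul_apply, hbw j, heig j _ (hnorm a ha), map_smul, hv, hbw j]
  rw [h2, map_smul, Finsupp.smul_apply, smul_eq_mul] at h1
  have h4 : (μ j (g⁻¹ * a * g) - μ j a) * b.repr v j = 0 := by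
    rw [sub_mul, h1, sub_self]
  rcases mul_eq_zero.1 h4 with h5 | h5
  · exact absurd (sub_eq_zero.1 h5) hne
  · exact h5

end Cfsg.Agent.Lib.Helper65.ReeDegTRZ
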