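import Mathlib
import Cfsg.Agent.Lib.Helper16.SNStmt
import Cfsg.Agent.Lib.Helper7.SimpleSylow

/-!
# S3641 piece CARD: the image of `G` on its 18 Sylow 17-subgroups has order `18 * 17 * d`,
`d ∣ 16`

The image `B` of `N_G(P)` has index 18 in the range, contains the image `Y` of `P` (of order
17) as a normal subgroup, and the normalizer of `Y` in the symmetric group of degree 18 has order
dividing `17 * 16`.
-/

set_option autoImplicit false

namespace Cfsg.Agent.Lib.Helper65.SNCARD

open Cfsg.Agent.Lib.Helper16.SNStmt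

universe u

theorem main : CardRange.{u} := by
  intro G _ _ h18
  classical
  have h17 : Fact (Nat.Prime 17) := ⟨by norm_num⟩
  have hfin : Fintype (Sylow 17 G) := Fintype.ofFinite _
  obtain ⟨P⟩ : Nonempty (Sylow 17 G) := inferInstance
  have hNidx : (Subgroup.normalizer ((P : Subgroup G) : Set G)).index = 18 := by
    rw [← h18]
    exact (Sylow.card_eq_index_normalizer P).symm
  have hKN : (act G).ker ≤ Subgroup.normalizer ((P : Subgroup G) : Set G) := by
    intro g hg
    rw [MonoidHom.mem_ker] at hg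
    have h1 : g • P = P := by
      have h2 := congrArg (fun σ : Equiv.Perm (Sylow 17 G) => σ P) hg
      simpa using h2
    exact Sylow.smul_eq_iff_mem_normalizer.mp h1
  obtain ⟨B, hB⟩ : ∃ B : Subgroup (Equiv.Perm (Sylow 17 G)),
      B = (Subgroup.normalizer ((P : Subgroup G) : Set G)).map (act G) := ⟨_, rfl⟩
  obtain ⟨Y, hY⟩ : ∃ Y : Subgroup (Equiv.Perm (Sylow 17 G)),
      Y = (P : Subgroup G).map (act G) := ⟨_, rfl⟩
  -- the range has order `18 * |B|`
  have hcard : Nat.card (act G).range = 18 * Nat.card B := by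
    have h1 := Subgroup.index_map (Subgroup.normalizer ((P : Subgroup G) : Set G)) (act G)
    rw [sup_eq_left.mpr hKN, hNidx, ← hB] at h1
    have h2 := Subgroup.card_mul_index B
    have h3 := Subgroup.card_mul_index (act G).range
    have hpos : 0 < (act G).range.index := Nat.pos_of_ne_zero Subgroup.index_ne_zero_of_finite
    rw [h1] at h2
    apply Nat.eq_of_mul_eq_mul_right hpos
    rw [h3, ← h2]
    ring
  -- `Y` has order 17
  have hYp : IsPGroup 17 Y := by
    rw [hY]
    exact P.isPGroup'.map (act G)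
  obtain ⟨k, hk⟩ := IsPGroup.iff_card.mp hYp
  have hcardPerm : Nat.card (Equiv.Perm (Sylow 17 G)) = Nat.factorial 18 := by
    rw [Nat.card_perm, h18]
  have hk1 : k ≤ 1 := by
    by_contra hcon
    push Not at hcon
    have h289 : 17 ^ 2 ∣ Nat.factorial 18 := by
      rw [← hcardPerm]
      exact dvd_trans (pow_dvd_pow 17 hcon) (hk ▸ Subgroup.card_subgroup_dvd_card Y)
    revert h289
    decide
  have hk0 : k ≠ 0 := by
    rintro rfl
    have hYbot : Y = ⊥ := Subgroup.eq_bot_of_card_eq _ (by simpa using hk)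
    have hPK : (P : Subgroup G) ≤ (act G).ker := by
      rw [← Subgroup.map_eq_bot_iff, ← hY]
      exact hYbot
    have hall : ∀ Q : Sylow 17 G, Q = P := by
      intro Q
      have hfix : Q ∈ MulAction.fixedPoints (P : Subgroup G) (Sylow 17 G) := by
        intro g
        have hg := hPK g.2
        rw [MonoidHom.mem_ker] at hg
        have h2 := congrArg (fun σ : Equiv.Perm (Sylow 17 G) => σ Q) hg
        have h3 : (g : G) • Q = Q := by simpa using h2
        exact h3
      have hle : (P : Subgroup G) ≤ Q := (P.isPGroup'.sylow_mem_fixedPoints_iff).mp hfix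
      exact Sylow.ext (P.is_maximal' Q.isPGroup' hle)
    have hone : Nat.card (Sylow 17 G) = 1 := by
      rw [Nat.card_eq_one_iff_unique]
      exact ⟨⟨fun a b => (hall a).trans (hall b).symm⟩, ⟨P⟩⟩
    omega
  have hY17 : Nat.card Y = 17 := by
    have hk' : k = 1 := by omega
    rw [hk, hk']
    norm_num
  -- the normalizer of `Y` in the symmetric group
  have hnorm := Cfsg.Agent.Lib.Helper7.SimpleSylow.card_normalizer_dvd Y hY17
  obtain ⟨x, hx⟩ := exists_prime_orderOf_dvd_card' (G := Y) 17 (dvd_of_eq hY17.symm)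
  have hy : orderOf (x : Equiv.Perm (Sylow 17 G)) = 17 := by
    rw [Subgroup.orderOf_coe]
    exact hx
  obtain ⟨n, hn1, hn2⟩ :=
    Cfsg.Agent.Lib.Helper7.SimpleSylow.card_centralizer_prime_order
      (x : Equiv.Perm (Sylow 17 G)) (by norm_num : Nat.Prime 17) hy
  have hcardF : Fintype.card (Sylow 17 G) = 18 := by
    rw [← Nat.card_eq_fintype_card]
    exact h18
  have hn0 : n = 0 := by
    have hle := Finset.card_le_univ (x : Equiv.Perm (Sylow 17 G)).support
    rw [hn1, hcardF] at hle
    omega
  rw [hn0, hcardF] at hn2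
  have hC17 : Nat.card (Subgroup.centralizer ({(x : Equiv.Perm (Sylow 17 G))} :
      Set (Equiv.Perm (Sylow 17 G)))) = 17 := by
    rw [hn2]
    norm_num [Nat.factorial]
  have hCY : Nat.card (Subgroup.centralizer (Y : Set (Equiv.Perm (Sylow 17 G)))) ∣ 17 := by
    have h1 := Subgroup.card_dvd_of_le
      (Subgroup.centralizer_le (Set.singleton_subset_iff.mpr x.2) :
        Subgroup.centralizer (Y : Set (Equiv.Perm (Sylow 17 G))) ≤
          Subgroup.centralizer ({(x : Equiv.Perm (Sylow 17 G))} :
            Set (Equiv.Perm (Sylow 17 G))))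
    rwa [hC17] at h1
  have hBN : B ≤ Subgroup.normalizer (Y : Set (Equiv.Perm (Sylow 17 G))) := by
    rw [hB, hY]
    exact Subgroup.le_normalizer_map (act G)
  have hYB : Y ≤ B := by
    rw [hB, hY]
    exact Subgroup.map_mono Subgroup.le_normalizer
  have hB1 : Nat.card B ∣ 17 * 16 :=
    dvd_trans (Subgroup.card_dvd_of_le hBN) (dvd_trans hnorm (Nat.mul_dvd_mul_right hCY 16))
  have hB2 : 17 ∣ Nat.card B := by
    have h1 := Subgroup.card_dvd_of_le hYB
    rwa [hY17] at h1
  obtain ⟨d, hd⟩ := hB2
  refine ⟨d, ?_, ?_⟩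
  · rw [hd] at hB1
    exact Nat.dvd_of_mul_dvd_mul_left (by norm_num) hB1
  · rw [hcard, hd]
    ring

end Cfsg.Agent.Lib.Helper65.SNCARD
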